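import Cfsg.Agent.Lib.Perm.JordanPrime

/-!
# Two permutations of prime order with long cycles

`x` of prime order `p`, `y` a cycle of prime order `q`, with `p + q` and `2 q` larger than the degree.
The group they generate is primitive on the union of the supports.
-/

set_option autoImplicit false

namespace Cfsg.Agent.Lib.AltTwoPrimes.Core

open Equiv Equiv.Perm MulAction Subgroup
open scoped Pointwise

section Pow

variable {α : Type*} [Fintype α] [DecidableEq α]

/-- Non-trivial powers of a permutation of prime order move the points it moves. -/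
theorem pow_apply_ne {x : Perm α} {p : ℕ} (hp : p.Prime) (hx : orderOf x = p) {u : α}
    (hu : x u ≠ u) {t : ℕ} (h0 : 0 < t) (ht : t < p) : (x ^ t) u ≠ u := by
  intro h
  apply hu
  have hcop : Nat.Coprime t p := by
    apply Nat.Coprime.symm
    rw [hp.coprime_iff_not_dvd]
    intro hd
    have := Nat.le_of_dvd h0 hd
    omega
  obtain ⟨m, hm⟩ := Nat.exists_mul_mod_eq_one_of_coprime hcop hp.one_lt
  have h3 : x = (x ^ t) ^ m := by
    rw [← pow_mul, ← pow_mod_orderOf x (t * m), hx, hm.2, pow_one]
  rw [h3]
  exact pow_apply_eq_self_of_apply_eq_self h m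

/-- The orbit of a moved point has `p` points. -/
theorem pow_inj {x : Perm α} {p : ℕ} (hp : p.Prime) (hx : orderOf x = p) {u : α}
    (hu : x u ≠ u) : Function.Injective (fun i : Fin p => (x ^ (i : ℕ)) u) := by
  have key : ∀ i j : ℕ, i < j → j < p → (x ^ i) u ≠ (x ^ j) u := by
    intro i j hij hjp he
    have e : x ^ j = x ^ i * x ^ (j - i) := by
      rw [← pow_add]; congr 1; omega
    rw [e, Perm.mul_apply] at he
    exact pow_apply_ne hp hx hu (t := j - i) (by omega) (by omega) ((x ^ i).injective he).symm
  intro i j hij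
  simp only at hij
  rcases lt_trichotomy (i : ℕ) (j : ℕ) with h | h | h
  · exact absurd hij (key _ _ h j.2)
  · exact Fin.ext h
  · exact absurd hij.symm (key _ _ h i.2)

/-- An orbit of size `p` meets any set whose complement has fewer than `p` elements. -/
theorem exists_pow_mem {x : Perm α} {p : ℕ} (hp : p.Prime) (hx : orderOf x = p) {u : α}
    (hu : x u ≠ u) (S : Finset α) (hS : (Sᶜ).card < p) : ∃ i : ℕ, (x ^ i) u ∈ S := by
  by_contra hno
  push Not at hno
  have hle : p ≤ (Sᶜ).card := by
    calc p = (Finset.univ : Finset (Fin p)).card := by simp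
      _ ≤ (Sᶜ).card := Finset.card_le_card_of_injOn _
          (fun i _ => by simpa using hno i) (pow_inj hp hx hu).injOn
  omega

/-- An element of odd order is even. -/
theorem sign_eq_one_of_odd {x : Perm α} (h : Odd (orderOf x)) : sign x = 1 := by
  have h1 := congrArg sign (pow_orderOf_eq_one x)
  rw [map_pow, map_one] at h1
  rcases Int.units_eq_one_or (sign x) with h2 | h2
  · exact h2
  · rw [h2, h.neg_one_pow] at h1
    exact absurd h1 (by decide)

end Pow

section Prim

variable {β : Type*} [Fintype β] [DecidableEq β]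

theorem pow_smul_fix {G X : Type*} [Group G] [MulAction G X] (t : G) (S : Set X)
    (h : t • S = S) (m : ℕ) : (t ^ m) • S = S := by
  induction m with
  | zero => simp
  | succ m ih => rw [pow_succ, mul_smul, h, ih]

/-- A transitive group containing a cycle of prime length more than half of the degree is
primitive. -/
theorem prim_of_long_cycle (G : Subgroup (Perm β)) [hT : IsPretransitive G β] {y : Perm β}
    (hy : y ∈ G) {q : ℕ} (hq : q.Prime) (hyo : orderOf y = q) (hyc : y.IsCycle)
    (hcard : Fintype.card β < 2 * q) : IsPreprimitive G β := by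
  refine { isTrivialBlock_of_isBlock := ?_ }
  intro B hB
  by_cases hne : B.Nonempty
  swap
  · left
    rw [Set.not_nonempty_iff_eq_empty] at hne
    rw [hne]
    exact Set.subsingleton_empty
  obtain ⟨b₀, hb₀⟩ := hne
  obtain ⟨c₀, hc₀, hc₀'⟩ := hyc
  obtain ⟨g, hg⟩ := MulAction.exists_smul_eq G b₀ c₀
  set B' : Set β := g • B with hB'
  have hblock : IsBlock G B' := hB.translate g
  have hc₀B' : c₀ ∈ B' := by
    rw [hB', ← hg]
    exact Set.smul_mem_smul_set hb₀
  let e₁ : G := ⟨y, hy⟩
  have hcardsupp : y.support.card = q := by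
    rw [← hyo]; exact (IsCycle.orderOf ⟨c₀, hc₀, hc₀'⟩).symm
  by_cases hfix : e₁ • B' = B'
  · right
    have hpow : ∀ n : ℕ, (y ^ n) c₀ ∈ B' := by
      intro n
      have h1 : (e₁ ^ n) • B' = B' := by
        induction n with
        | zero => simp
        | succ n ih => rw [pow_succ, mul_smul, hfix, ih]
      have h2 : (e₁ ^ n) • c₀ ∈ (e₁ ^ n) • B' := Set.smul_mem_smul_set hc₀B'
      rw [h1] at h2
      exact h2
    have hsub : (y.support : Set β) ⊆ B' := by
      intro v hv
      have hv' : y v ≠ v := by
        simpa using hv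
      obtain ⟨i, hi⟩ := hc₀' hv' |>.exists_nat_pow_eq
      rw [← hi]
      exact hpow i
    have hnc : q ≤ B'.ncard := by
      rw [← hcardsupp, ← Set.ncard_coe_finset]
      exact Set.ncard_le_ncard hsub (Set.toFinite _)
    have huniv : B' = Set.univ := hblock.eq_univ_of_card_lt (by
      rw [Nat.card_eq_fintype_card]
      omega)
    have : B = g⁻¹ • B' := by rw [hB', inv_smul_smul]
    rw [this, huniv, Set.smul_set_univ]
  · left
    have hsing : B'.Subsingleton := by
      intro b₁ hb₁ b₂ hb₂
      by_contra hne
      -- two points, `q` disjoint translates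
      have hdisj : ∀ i j : ℕ, i < j → j < q → ∀ u ∈ B', ∀ v ∈ B', (y ^ i) u ≠ (y ^ j) v := by
        intro i j hij hjq u hu v hv he
        have h1 : (e₁ ^ i) • B' = (e₁ ^ j) • B' := by
          by_contra hn
          have := hblock hn
          rw [Set.disjoint_left] at this
          refine this (a := (y ^ i) u) (Set.smul_mem_smul_set hu) ?_
          rw [he]
          exact Set.smul_mem_smul_set hv
        have h2 : (e₁ ^ (j - i)) • B' = B' := by
          have e : e₁ ^ j = e₁ ^ i * e₁ ^ (j - i) := by
            rw [← pow_add]; congr 1; omega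
          rw [e, mul_smul] at h1
          exact (smul_left_cancel _ h1).symm
        have hcop : Nat.Coprime (j - i) q := by
          apply Nat.Coprime.symm
          rw [hq.coprime_iff_not_dvd]
          intro hd
          have := Nat.le_of_dvd (by omega) hd
          omega
        obtain ⟨m, hm⟩ := Nat.exists_mul_mod_eq_one_of_coprime hcop hq.one_lt
        have h3 : e₁ = (e₁ ^ (j - i)) ^ m := by
          have ho : orderOf e₁ = q := by
            rw [← hyo]; exact Subgroup.orderOf_mk y hy
          rw [← pow_mul, ← pow_mod_orderOf e₁ ((j - i) * m), ho, hm.2, pow_one]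
        apply hfix
        rw [h3]
        exact pow_smul_fix _ _ h2 m
      -- the map from `Fin q × Bool`
      let φ : Fin q × Bool → β := fun w => (y ^ (w.1 : ℕ)) (if w.2 then b₁ else b₂)
      have hmem : ∀ b : Bool, (if b then b₁ else b₂) ∈ B' := by
        intro b; cases b <;> simp [hb₁, hb₂]
      have hφ : Function.Injective φ := by
        rintro ⟨i, bi⟩ ⟨j, bj⟩ he
        simp only [φ] at he
        have hij : (i : ℕ) = j := by
          rcases lt_trichotomy (i : ℕ) (j : ℕ) with h | h | h
          · exact absurd he (hdisj _ _ h j.2 _ (hmem _) _ (hmem _))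
          · exact h
          · exact absurd he.symm (hdisj _ _ h i.2 _ (hmem _) _ (hmem _))
        have hij' : i = j := Fin.ext hij
        subst hij'
        have h1 := (y ^ (i : ℕ)).injective he
        have h2 : bi = bj := by
          cases bi <;> cases bj <;> simp_all
        rw [h2]
      have h2q := Fintype.card_le_of_injective φ hφ
      simp only [Fintype.card_prod, Fintype.card_fin, Fintype.card_bool] at h2q
      omega
    have : B = g⁻¹ • B' := by rw [hB', inv_smul_smul]
    rw [this]
    exact hsing.image _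

end Prim

section Res

variable {α : Type*} [Fintype α] [DecidableEq α]

/-- The union of the supports. -/
def Dl (x y : Perm α) : Finset α := x.support ∪ y.support

theorem mem_Dl {x y : Perm α} {a : α} : a ∈ Dl x y ↔ x a ≠ a ∨ y a ≠ a := by
  simp [Dl]

theorem left_aux (x y : Perm α) (a : α) : x a ∈ Dl x y ↔ a ∈ Dl x y := by
  by_cases h : x a = a
  · rw [h]
  · have h1 : a ∈ Dl x y := mem_Dl.2 (Or.inl h)
    have h2 : x a ∈ Dl x y := mem_Dl.2 (Or.inl fun h3 => h (x.injective h3))
    exact ⟨fun _ => h1, fun _ => h2⟩

theorem right_aux (x y : Perm α) (a : α) : y a ∈ Dl x y ↔ a ∈ Dl x y := by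
  by_cases h : y a = a
  · rw [h]
  · have h1 : a ∈ Dl x y := mem_Dl.2 (Or.inr h)
    have h2 : y a ∈ Dl x y := mem_Dl.2 (Or.inr fun h3 => h (y.injective h3))
    exact ⟨fun _ => h1, fun _ => h2⟩

/-- The restriction of `x`. -/
def resL (x y : Perm α) : Perm {a // a ∈ Dl x y} := x.subtypePerm (left_aux x y)

/-- The restriction of `y`. -/
def resR (x y : Perm α) : Perm {a // a ∈ Dl x y} := y.subtypePerm (right_aux x y)

theorem ofSubtype_resL (x y : Perm α) : ofSubtype (resL x y) = x :=
  ofSubtype_subtypePerm _ fun _ h => mem_Dl.2 (Or.inl h)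

theorem ofSubtype_resR (x y : Perm α) : ofSubtype (resR x y) = y :=
  ofSubtype_subtypePerm _ fun _ h => mem_Dl.2 (Or.inr h)

theorem resL_pow_apply (x y : Perm α) (n : ℕ) (u : {a // a ∈ Dl x y}) :
    (((resL x y) ^ n) u : α) = (x ^ n) u := by
  induction n with
  | zero => simp
  | succ n ih =>
    rw [pow_succ', pow_succ', Perm.mul_apply, Perm.mul_apply]
    simp only [resL, subtypePerm_apply]
    rw [← ih]
    rfl

theorem resR_pow_apply (x y : Perm α) (n : ℕ) (u : {a // a ∈ Dl x y}) :
    (((resR x y) ^ n) u : α) = (y ^ n) u := by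
  induction n with
  | zero => simp
  | succ n ih =>
    rw [pow_succ', pow_succ', Perm.mul_apply, Perm.mul_apply]
    simp only [resR, subtypePerm_apply]
    rw [← ih]
    rfl

theorem orderOf_resL (x y : Perm α) : orderOf (resL x y) = orderOf x := by
  rw [← orderOf_injective ofSubtype ofSubtype_injective, ofSubtype_resL]

theorem orderOf_resR (x y : Perm α) : orderOf (resR x y) = orderOf y := by
  rw [← orderOf_injective ofSubtype ofSubtype_injective, ofSubtype_resR]

theorem card_support_resL (x y : Perm α) : (resL x y).support.card = x.support.card := by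
  conv_rhs => rw [← ofSubtype_resL x y, support_ofSubtype, Finset.card_map]
  convert rfl

theorem card_support_resR (x y : Perm α) : (resR x y).support.card = y.support.card := by
  conv_rhs => rw [← ofSubtype_resR x y, support_ofSubtype, Finset.card_map]
  convert rfl

theorem card_Dl (x y : Perm α) : Fintype.card {a // a ∈ Dl x y} = (Dl x y).card :=
  Fintype.card_coe _

/-- The group on the union of the supports. -/
def Hres (x y : Perm α) : Subgroup (Perm {a // a ∈ Dl x y}) :=
  closure {resL x y, resR x y}

theorem map_Hres (x y : Perm α) :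
    (Hres x y).map ofSubtype = closure {x, y} := by
  rw [Hres, MonoidHom.map_closure, Set.image_pair, ofSubtype_resL, ofSubtype_resR]

/-- The abstract isomorphism type. -/
theorem iso_Hres (x y : Perm α) : Nonempty (closure ({x, y} : Set (Perm α)) ≃* Hres x y) := by
  refine ⟨((MulEquiv.subgroupCongr (map_Hres x y)).symm.trans
    (Subgroup.equivMapOfInjective (Hres x y) ofSubtype ofSubtype_injective).symm)⟩

theorem hres_left_mem (x y : Perm α) : resL x y ∈ Hres x y :=
  subset_closure (Set.mem_insert _ _)

theorem hres_right_mem (x y : Perm α) : resR x y ∈ Hres x y :=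
  subset_closure (Set.mem_insert_of_mem _ rfl)

/-- Transitivity on the union of the supports. -/
theorem trans_Hres (x y : Perm α) {p q : ℕ} (hp : p.Prime) (hxo : orderOf x = p)
    (hyo : orderOf y = q) (hyc : y.IsCycle) (hcard : Fintype.card α < p + q) :
    IsPretransitive (Hres x y) {a // a ∈ Dl x y} := by
  obtain ⟨c₀, hc₀, hc₀'⟩ := id hyc
  have hc₀D : c₀ ∈ Dl x y := mem_Dl.2 (Or.inr hc₀)
  have hcs : y.support.card = q := by rw [← hyo]; exact hyc.orderOf.symm
  have hpowR : ∀ n : ℕ, (resR x y) ^ n ∈ Hres x y := fun n => pow_mem (hres_right_mem x y) n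
  have hpowL : ∀ n : ℕ, (resL x y) ^ n ∈ Hres x y := fun n => pow_mem (hres_left_mem x y) n
  have hstep : ∀ u : {a // a ∈ Dl x y}, y (u : α) ≠ u →
      ∃ g ∈ Hres x y, g u = ⟨c₀, hc₀D⟩ := by
    intro u hu
    obtain ⟨i, hi⟩ := hyc.exists_pow_eq hu hc₀
    exact ⟨_, hpowR i, Subtype.ext (by rw [resR_pow_apply, hi])⟩
  have hto : ∀ u : {a // a ∈ Dl x y}, ∃ g ∈ Hres x y, g u = ⟨c₀, hc₀D⟩ := by
    intro u
    by_cases hu : y (u : α) = u
    · have hxu : x (u : α) ≠ u := by
        rcases mem_Dl.1 u.2 with h | h
        · exact h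
        · exact absurd hu h
      have hS : (y.supportᶜ).card < p := by
        have := hp.pos
        rw [Finset.card_compl, hcs]; omega
      obtain ⟨i, hi⟩ := exists_pow_mem hp hxo hxu y.support hS
      have hi' : y ((x ^ i) (u : α)) ≠ (x ^ i) (u : α) := by simpa using hi
      let v : {a // a ∈ Dl x y} := (resL x y ^ i) u
      have hv : (v : α) = (x ^ i) u := resL_pow_apply x y i u
      obtain ⟨g, hg, hgv⟩ := hstep v (by rw [hv]; exact hi')
      exact ⟨g * resL x y ^ i, mul_mem hg (hpowL i), hgv⟩
    · exact hstep u hu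
  refine ⟨fun a b => ?_⟩
  obtain ⟨g, hg, hga⟩ := hto a
  obtain ⟨h, hh, hhb⟩ := hto b
  refine ⟨⟨h⁻¹ * g, mul_mem (inv_mem hh) hg⟩, ?_⟩
  change (h⁻¹ * g) a = b
  rw [Perm.mul_apply, hga, ← hhb]
  simp

/-- Primitivity on the union of the supports. -/
theorem prim_Hres (x y : Perm α) {p q : ℕ} (hp : p.Prime) (hq : q.Prime) (hxo : orderOf x = p)
    (hyo : orderOf y = q) (hyc : y.IsCycle) (hcard : Fintype.card α < p + q)
    (h2q : Fintype.card α < 2 * q) :
    IsPreprimitive (Hres x y) {a // a ∈ Dl x y} := by
  haveI := trans_Hres x y hp hxo hyo hyc hcard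
  have hle : Fintype.card {a // a ∈ Dl x y} ≤ Fintype.card α := Fintype.card_subtype_le _
  refine prim_of_long_cycle (Hres x y) (hres_right_mem x y) hq (by rw [orderOf_resR]; exact hyo) ?_
    (by omega)
  exact isCycle_of_prime_order' (by rw [orderOf_resR, hyo]; exact hq)
    (by rw [orderOf_resR, hyo]; omega)

/-- The restrictions are even when the orders are odd. -/
theorem Hres_le_alt (x y : Perm α) (hx : Odd (orderOf x)) (hy : Odd (orderOf y)) :
    Hres x y ≤ alternatingGroup _ := by
  rw [Hres, closure_le]
  intro g hg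
  rcases hg with rfl | rfl
  · exact mem_alternatingGroup.2 (sign_eq_one_of_odd (by rwa [orderOf_resL]))
  · exact mem_alternatingGroup.2 (sign_eq_one_of_odd (by rwa [orderOf_resR]))

/-- The conclusion from the inclusion of the alternating group. -/
theorem iso_alt (x y : Perm α) (hx : Odd (orderOf x)) (hy : Odd (orderOf y))
    (h : alternatingGroup _ ≤ Hres x y) :
    Nonempty (closure ({x, y} : Set (Perm α)) ≃* alternatingGroup (Fin (Dl x y).card)) := by
  obtain ⟨e⟩ := iso_Hres x y
  have heq : Hres x y = alternatingGroup _ := le_antisymm (Hres_le_alt x y hx hy) h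
  exact ⟨e.trans ((MulEquiv.subgroupCongr heq).trans
    (Equiv.altCongrHom (Fintype.equivFinOfCardEq (card_Dl x y))))⟩

/-- The closure inside the alternating group. -/
theorem closure_alt_iso (x y : alternatingGroup α) :
    Nonempty (closure ({x, y} : Set (alternatingGroup α)) ≃*
      closure ({(x : Perm α), (y : Perm α)} : Set (Perm α))) := by
  have h1 : (closure ({x, y} : Set (alternatingGroup α))).map (alternatingGroup α).subtype
      = closure ({(x : Perm α), (y : Perm α)} : Set (Perm α)) := by
    rw [MonoidHom.map_closure, Set.image_pair]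
    rfl
  exact ⟨(Subgroup.equivMapOfInjective _ _ (Subgroup.subtype_injective _)).trans
    (MulEquiv.subgroupCongr h1)⟩

end Res

end Cfsg.Agent.Lib.AltTwoPrimes.Core
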