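import Cfsg.Agent.Lib.AltTwoPrimes.Twin11

/-!
# An element of order five with three fixed points on thirteen points

If a primitive group of degree thirteen, without `5`-cycles, contains an element `z` of type `5 + 5`
with fixed points `a, b, c`, and an element permuting `a, b, c` cyclically, then it contains a
`3`-cycle.
-/

set_option autoImplicit false

namespace Cfsg.Agent.Lib.AltTwoPrimes.Five

open Equiv Equiv.Perm MulAction Subgroup
open Cfsg.Agent.Lib.AltTwoPrimes.Core Cfsg.Agent.Lib.AltTwoPrimes.Twin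
open scoped Pointwise

section Abstract

variable {X : Type*} [Group X]

theorem conj_pow_pow (w z : X) {n : ℕ} (h : w * z * w⁻¹ = z ^ n) (s : ℕ) :
    (w ^ s) * z * (w ^ s)⁻¹ = z ^ (n ^ s) := by
  induction s with
  | zero => simp
  | succ s ih =>
    calc w ^ (s + 1) * z * (w ^ (s + 1))⁻¹ = w * (w ^ s * z * (w ^ s)⁻¹) * w⁻¹ := by
          rw [pow_succ']; group
      _ = w * z ^ (n ^ s) * w⁻¹ := by rw [ih]
      _ = (w * z * w⁻¹) ^ (n ^ s) := (conj_pow).symm
      _ = z ^ (n ^ (s + 1)) := by rw [h, ← pow_mul, pow_succ']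

theorem comm_of_odd (w z : X) (hz : orderOf z = 5) {n : ℕ} (h : w * z * w⁻¹ = z ^ n)
    (hw : Odd (orderOf w)) : w * z = z * w := by
  have h1 := conj_pow_pow w z h (orderOf w)
  rw [pow_orderOf_eq_one] at h1
  simp only [one_mul, inv_one, mul_one] at h1
  have h2 : 1 ≡ n ^ orderOf w [MOD 5] := by
    rw [← hz, ← pow_eq_pow_iff_modEq, pow_one]
    exact h1
  have h3 : ((n : ZMod 5)) ^ orderOf w = 1 := by
    have := (ZMod.natCast_eq_natCast_iff _ _ _).2 h2
    push_cast at this
    exact this.symm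
  have hNpos : orderOf w ≠ 0 := by
    intro h0
    rw [h0] at hw
    exact absurd hw (by decide)
  have hK : (n : ZMod 5) ≠ 0 := by
    intro h0
    rw [h0, zero_pow hNpos] at h3
    exact absurd h3 (by decide)
  have h4 : ∀ K : ZMod 5, K ≠ 0 → K ^ 4 = 1 := by decide
  have h5 : (n : ZMod 5) ^ Nat.gcd 4 (orderOf w) = 1 := pow_gcd_eq_one.2 ⟨h4 _ hK, h3⟩
  have hg : Nat.gcd 4 (orderOf w) = 1 := by
    have : Nat.Coprime (2 ^ 2) (orderOf w) := Nat.Coprime.pow_left 2 (Nat.coprime_two_left.2 hw)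
    exact this
  rw [hg, pow_one] at h5
  have h6 : n ≡ 1 [MOD 5] := by
    rw [← ZMod.natCast_eq_natCast_iff]
    push_cast
    exact h5
  have h7 : z ^ n = z := by
    conv_rhs => rw [← pow_one z]
    rw [pow_eq_pow_iff_modEq, hz]
    exact h6
  rw [h7] at h
  exact mul_inv_eq_iff_eq_mul.1 h

instance fact_five : Fact (Nat.Prime 5) := ⟨by norm_num⟩

theorem sylow_conj [Finite X] (z : X) (hz : orderOf z = 5)
    (hV : ∀ v : X, v * z = z * v → (∃ e : ℕ, orderOf v = 5 ^ e) → v ∈ zpowers z)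
    (z₂ : X) (hz₂ : orderOf z₂ = 5) : ∃ r : X, r * z₂ * r⁻¹ ∈ zpowers z := by
  have hQ : IsPGroup 5 (zpowers z) := IsPGroup.of_card (n := 1) (by rw [Nat.card_zpowers, hz, pow_one])
  have hQ₂ : IsPGroup 5 (zpowers z₂) :=
    IsPGroup.of_card (n := 1) (by rw [Nat.card_zpowers, hz₂, pow_one])
  obtain ⟨S, hS⟩ := hQ.exists_le_sylow
  obtain ⟨S₂, hS₂⟩ := hQ₂.exists_le_sylow
  have hSeq : (S : Subgroup X) = zpowers z := by
    by_contra hne
    have hlt : zpowers z < (S : Subgroup X) := lt_of_le_of_ne hS (Ne.symm hne)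
    haveI : Group.IsNilpotent (S : Subgroup X) := S.2.isNilpotent
    have hcond := Group.normalizerCondition_of_isNilpotent (G := (S : Subgroup X))
    set Q' : Subgroup (S : Subgroup X) := (zpowers z).subgroupOf S with hQ'
    have hQtop : Q' < ⊤ := by
      rw [lt_top_iff_ne_top]
      intro htop
      apply hne
      apply le_antisymm _ hS
      exact subgroupOf_eq_top.1 htop
    obtain ⟨v', hv'N, hv'Q⟩ := SetLike.exists_of_lt (hcond Q' hQtop)
    have hzS : z ∈ (S : Subgroup X) := hS (mem_zpowers z)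
    have hv1 : (v' : X) * z * (v' : X)⁻¹ ∈ zpowers z := by
      have h1 := (mem_normalizer_iff.1 hv'N (⟨z, hzS⟩ : (S : Subgroup X))).1
        (by rw [hQ', mem_subgroupOf]; exact mem_zpowers z)
      rw [hQ', mem_subgroupOf] at h1
      exact h1
    obtain ⟨n, hn⟩ := (mem_powers_iff_mem_zpowers).2 hv1
    obtain ⟨e, he⟩ := IsPGroup.iff_orderOf.1 S.2 v'
    have he' : orderOf (v' : X) = 5 ^ e := by rw [Subgroup.orderOf_coe]; exact he
    have hodd : Odd (orderOf (v' : X)) := by
      rw [he']; exact Odd.pow (by decide)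
    have hc := comm_of_odd (v' : X) z hz hn.symm hodd
    apply hv'Q
    rw [hQ', mem_subgroupOf]
    exact hV _ hc ⟨e, he'⟩
  obtain ⟨r, hr⟩ := MulAction.exists_smul_eq X S₂ S
  refine ⟨r, ?_⟩
  rw [← hSeq, ← hr, Sylow.coe_subgroup_smul]
  have h1 : z₂ ∈ (S₂ : Subgroup X) := hS₂ (mem_zpowers z₂)
  have h2 := Subgroup.smul_mem_pointwise_smul z₂ (MulAut.conj r) (S₂ : Subgroup X) h1
  simpa [MulAut.smul_def, MulAut.conj_apply] using h2

end Abstract

section Orbit

variable {Ω : Type*} [Fintype Ω] [DecidableEq Ω] {z : Perm Ω}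

theorem moved_pow (u : Ω) (hu : z u ≠ u) (i : ℕ) : z ((z ^ i) u) ≠ (z ^ i) u := by
  intro h
  apply hu
  apply (z ^ i).injective
  have e : (z ^ i) (z u) = z ((z ^ i) u) := by
    rw [← Perm.mul_apply, ← Perm.mul_apply, (Commute.refl z).pow_left i |>.eq]
  rw [e, h]

theorem pow_inv_eq (hz : orderOf z = 5) (i : ℕ) : (z ^ i)⁻¹ = z ^ (4 * i) := by
  rw [inv_eq_iff_mul_eq_one, ← pow_add, show i + 4 * i = 5 * i by ring, pow_mul, ← hz,
    pow_orderOf_eq_one, one_pow]

/-- Two different orbits cover the support. -/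
theorem cover (hz : orderOf z = 5) (hz10 : z.support.card = 10) {u₁ u₂ : Ω} (hu₁ : z u₁ ≠ u₁)
    (hu₂ : z u₂ ≠ u₂) (hne : ∀ i : ℕ, u₂ ≠ (z ^ i) u₁) {w : Ω} (hw : z w ≠ w) :
    (∃ i : ℕ, w = (z ^ i) u₁) ∨ (∃ i : ℕ, w = (z ^ i) u₂) := by
  let f₁ : Fin 5 → Ω := fun i => (z ^ (i : ℕ)) u₁
  let f₂ : Fin 5 → Ω := fun i => (z ^ (i : ℕ)) u₂
  have h5 : Nat.Prime 5 := by norm_num
  have hf₁ : Function.Injective f₁ := pow_inj h5 hz hu₁
  have hf₂ : Function.Injective f₂ := pow_inj h5 hz hu₂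
  have hdisj : Disjoint (Finset.univ.image f₁) (Finset.univ.image f₂) := by
    rw [Finset.disjoint_left]
    intro v hv1 hv2
    obtain ⟨i, -, hi⟩ := Finset.mem_image.1 hv1
    obtain ⟨j, -, hj⟩ := Finset.mem_image.1 hv2
    apply hne (4 * (j : ℕ) + i)
    rw [pow_add, ← pow_inv_eq hz, Perm.mul_apply]
    have : (z ^ (i : ℕ)) u₁ = (z ^ (j : ℕ)) u₂ := by
      have e1 : f₁ i = v := hi
      have e2 : f₂ j = v := hj
      exact e1.trans e2.symm
    rw [this]
    simp
  have hcard : (Finset.univ.image f₁ ∪ Finset.univ.image f₂).card = 10 := by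
    rw [Finset.card_union_of_disjoint hdisj, Finset.card_image_of_injective _ hf₁,
      Finset.card_image_of_injective _ hf₂]
    simp
  have hsub : Finset.univ.image f₁ ∪ Finset.univ.image f₂ ⊆ z.support := by
    intro v hv
    rw [mem_support]
    rcases Finset.mem_union.1 hv with hv | hv
    · obtain ⟨i, -, rfl⟩ := Finset.mem_image.1 hv
      exact moved_pow u₁ hu₁ i
    · obtain ⟨i, -, rfl⟩ := Finset.mem_image.1 hv
      exact moved_pow u₂ hu₂ i
  have heq := Finset.eq_of_subset_of_card_le hsub (by rw [hcard, hz10])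
  have hwS : w ∈ Finset.univ.image f₁ ∪ Finset.univ.image f₂ := by
    rw [heq, mem_support]; exact hw
  rcases Finset.mem_union.1 hwS with hv | hv
  · obtain ⟨i, -, hi⟩ := Finset.mem_image.1 hv
    exact Or.inl ⟨i, hi.symm⟩
  · obtain ⟨i, -, hi⟩ := Finset.mem_image.1 hv
    exact Or.inr ⟨i, hi.symm⟩

theorem comm_pow_apply {v : Perm Ω} (hc : v * z = z * v) (i : ℕ) (w : Ω) :
    v ((z ^ i) w) = (z ^ i) (v w) := by
  have h : Commute v (z ^ i) := (show Commute v z from hc).pow_right i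
  have := congrArg (fun t : Perm Ω => t w) h.eq
  simpa [Perm.mul_apply] using this

/-- An element of odd order commuting with `z` preserves the orbits of `z`. -/
theorem orbit_of_comm (hz : orderOf z = 5) (hz10 : z.support.card = 10) {v : Perm Ω}
    (hc : v * z = z * v) (hodd : Odd (orderOf v)) {u : Ω} (hu : z u ≠ u) :
    ∃ i : ℕ, v u = (z ^ i) u := by
  by_contra hno
  push Not at hno
  have hvu : z (v u) ≠ v u := by
    intro h
    apply hu
    apply v.injective
    have : v (z u) = z (v u) := by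
      rw [← Perm.mul_apply, hc, Perm.mul_apply]
    rw [this, h]
  have hmoved2 : z (v (v u)) ≠ v (v u) := by
    intro h
    apply hvu
    apply v.injective
    have : v (z (v u)) = z (v (v u)) := by
      rw [← Perm.mul_apply, hc, Perm.mul_apply]
    rw [this, h]
  have hvv : ∃ j : ℕ, v (v u) = (z ^ j) u := by
    rcases cover hz hz10 hu hvu hno hmoved2 with h | ⟨j, hj⟩
    · exact h
    · exfalso
      apply hno j
      apply v.injective
      rw [comm_pow_apply hc, hj]
  obtain ⟨j, hj⟩ := hvv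
  have hP : ∀ n : ℕ, (Even n → ∃ i : ℕ, (v ^ n) u = (z ^ i) u) ∧
      (Odd n → ∃ i : ℕ, (v ^ n) u = (z ^ i) (v u)) := by
    intro n
    induction n with
    | zero =>
      refine ⟨fun _ => ⟨0, by simp⟩, fun h => absurd h (by decide)⟩
    | succ n ih =>
      refine ⟨fun h => ?_, fun h => ?_⟩
      · have hn : Odd n := by
          rcases Nat.even_or_odd n with h' | h'
          · exact absurd h (by simpa [Nat.even_add_one] using h')
          · exact h'
        obtain ⟨i, hi⟩ := ih.2 hn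
        refine ⟨i + j, ?_⟩
        rw [pow_succ', Perm.mul_apply, hi, comm_pow_apply hc, hj, pow_add, Perm.mul_apply]
      · have hn : Even n := by
          rcases Nat.even_or_odd n with h' | h'
          · exact h'
          · exact absurd h (by simpa [Nat.odd_add_one] using h')
        obtain ⟨i, hi⟩ := ih.1 hn
        refine ⟨i, ?_⟩
        rw [pow_succ', Perm.mul_apply, hi, comm_pow_apply hc]
  obtain ⟨i, hi⟩ := (hP (orderOf v)).2 hodd
  rw [pow_orderOf_eq_one] at hi
  apply hno (4 * i)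
  rw [← pow_inv_eq hz]
  have h1 : u = (z ^ i) (v u) := hi
  rw [eq_comm, Perm.inv_eq_iff_eq]
  exact h1

end Orbit

section Main

variable {Ω : Type*} [Fintype Ω] [DecidableEq Ω] {z : Perm Ω}

theorem exists_two_reps (hz : orderOf z = 5) (hz10 : z.support.card = 10) :
    ∃ u₁ u₂ : Ω, z u₁ ≠ u₁ ∧ z u₂ ≠ u₂ ∧ ∀ i : ℕ, u₂ ≠ (z ^ i) u₁ := by
  have hne : z.support.Nonempty := by
    rw [← Finset.card_pos, hz10]; norm_num
  obtain ⟨u₁, hu₁⟩ := hne
  let f₁ : Fin 5 → Ω := fun i => (z ^ (i : ℕ)) u₁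
  have hlt : (Finset.univ.image f₁).card < z.support.card := by
    rw [hz10]
    exact lt_of_le_of_lt Finset.card_image_le (by simp)
  obtain ⟨u₂, hu₂, hu₂'⟩ := Finset.exists_mem_notMem_of_card_lt_card hlt
  refine ⟨u₁, u₂, by simpa using hu₁, by simpa using hu₂, ?_⟩
  intro i he
  apply hu₂'
  refine Finset.mem_image.2 ⟨⟨i % 5, Nat.mod_lt _ (by norm_num)⟩, Finset.mem_univ _, ?_⟩
  rw [he]
  simp only [f₁]
  rw [← hz, pow_mod_orderOf]

theorem eq_one_of_fix (hz : orderOf z = 5) (hz10 : z.support.card = 10) {u₁ u₂ : Ω}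
    (hu₁ : z u₁ ≠ u₁) (hu₂ : z u₂ ≠ u₂) (hne : ∀ i : ℕ, u₂ ≠ (z ^ i) u₁) {t : Perm Ω}
    (hc : t * z = z * t) (h1 : t u₁ = u₁) (h2 : t u₂ = u₂) (h3 : ∀ w, z w = w → t w = w) : t = 1 := by
  apply Equiv.ext
  intro w
  by_cases hw : z w = w
  · exact h3 w hw
  · rcases cover hz hz10 hu₁ hu₂ hne hw with ⟨i, rfl⟩ | ⟨i, rfl⟩
    · rw [comm_pow_apply hc, h1]; rfl
    · rw [comm_pow_apply hc, h2]; rfl

/-- An element of `5`-power order commuting with `z` is a power of `z`, if there are no `5`-cycles. -/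
theorem mem_zpowers_of_comm {G : Subgroup (Perm Ω)}
    (hno5 : ∀ c ∈ G, c.IsCycle → c.support.card = 5 → False) (hzG : z ∈ G)
    (hz : orderOf z = 5) (hz10 : z.support.card = 10) {v : Perm Ω} (hvG : v ∈ G)
    (hc : v * z = z * v) (he : ∃ e : ℕ, orderOf v = 5 ^ e) (hfix : ∀ w, z w = w → v w = w) :
    v ∈ zpowers z := by
  obtain ⟨u₁, u₂, hu₁, hu₂, hne⟩ := exists_two_reps hz hz10
  have hodd : Odd (orderOf v) := by
    obtain ⟨e, he⟩ := he
    rw [he]; exact Odd.pow (by decide)
  obtain ⟨i, hi⟩ := orbit_of_comm hz hz10 hc hodd hu₁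
  obtain ⟨j, hj⟩ := orbit_of_comm hz hz10 hc hodd hu₂
  set v' := z ^ (4 * i) * v with hv'
  have hv'G : v' ∈ G := mul_mem (pow_mem hzG _) hvG
  have hcv' : v' * z = z * v' := by
    have h1 : Commute (z ^ (4 * i)) z := (Commute.refl z).pow_left _
    have h2 : Commute v z := hc
    exact (h1.mul_left h2).eq
  have h1 : v' u₁ = u₁ := by
    rw [hv', Perm.mul_apply, hi, ← pow_inv_eq hz]
    simp
  have hd : v' u₂ = (z ^ (4 * i + j)) u₂ := by
    rw [hv', Perm.mul_apply, hj, pow_add, Perm.mul_apply]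
  have h3 : ∀ w, z w = w → v' w = w := by
    intro w hw
    rw [hv', Perm.mul_apply, hfix w hw]
    exact pow_apply_eq_self_of_apply_eq_self hw _
  by_cases h0 : (4 * i + j) % 5 = 0
  · have hz1 : z ^ (4 * i + j) = 1 := by
      rw [← pow_mod_orderOf, hz, h0, pow_zero]
    have h2 : v' u₂ = u₂ := by rw [hd, hz1]; rfl
    have hv1 := eq_one_of_fix hz hz10 hu₁ hu₂ hne hcv' h1 h2 h3
    have : v = (z ^ (4 * i))⁻¹ := eq_inv_of_mul_eq_one_right hv1
    rw [this]
    exact inv_mem (pow_mem (mem_zpowers z) _)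
  · exfalso
    have h5 : Nat.Prime 5 := by norm_num
    have hpow : ∀ n : ℕ, (v' ^ n) u₂ = (z ^ ((4 * i + j) * n)) u₂ := by
      intro n
      induction n with
      | zero => simp
      | succ n ih =>
        rw [pow_succ, Perm.mul_apply, hd]
        have hcp : (v' ^ n) * z = z * (v' ^ n) :=
          ((show Commute v' z from hcv').pow_left n).eq
        rw [comm_pow_apply hcp, ih, ← Perm.mul_apply, ← pow_add]
        congr 2
        ring
    have hv5 : v' ^ 5 = 1 := by
      apply eq_one_of_fix hz hz10 hu₁ hu₂ hne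
      · exact ((show Commute v' z from hcv').pow_left 5).eq
      · exact pow_apply_eq_self_of_apply_eq_self h1 5
      · rw [hpow, pow_mul', ← hz, pow_orderOf_eq_one, one_pow]; rfl
      · intro w hw
        exact pow_apply_eq_self_of_apply_eq_self (h3 w hw) 5
    have hmove : v' u₂ ≠ u₂ := by
      rw [hd, ← pow_mod_orderOf, hz]
      exact pow_apply_ne h5 hz hu₂ (Nat.pos_of_ne_zero h0) (Nat.mod_lt _ (by norm_num))
    have hv1 : v' ≠ 1 := by
      intro h
      rw [h] at hmove
      exact hmove rfl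
    have ho : orderOf v' = 5 := orderOf_eq_prime hv5 hv1
    -- the support of `v'` is in the second orbit
    let f₂ : Fin 5 → Ω := fun k => (z ^ (k : ℕ)) u₂
    have hsub : v'.support ⊆ Finset.univ.image f₂ := by
      intro w hw
      rw [mem_support] at hw
      have hzw : z w ≠ w := fun h => hw (h3 w h)
      rcases cover hz hz10 hu₁ hu₂ hne hzw with ⟨k, rfl⟩ | ⟨k, rfl⟩
      · exact absurd (by rw [comm_pow_apply hcv', h1]) hw
      · refine Finset.mem_image.2 ⟨⟨k % 5, Nat.mod_lt _ (by norm_num)⟩, Finset.mem_univ _, ?_⟩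
        simp only [f₂]
        rw [← hz, pow_mod_orderOf]
    have hcard : v'.support.card ≤ 5 := by
      refine (Finset.card_le_card hsub).trans (Finset.card_image_le.trans ?_)
      simp
    have hcyc : v'.IsCycle := isCycle_of_prime_order (by rw [ho]; exact h5) (by rw [ho]; omega)
    exact hno5 v' hv'G hcyc (by rw [← hcyc.orderOf, ho])

/-- The final step. -/
theorem final {G : Subgroup (Perm Ω)} (hprim : IsPreprimitive G Ω)
    (hno5 : ∀ c ∈ G, c.IsCycle → c.support.card = 5 → False) (hzG : z ∈ G)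
    (hz : orderOf z = 5) (hz10 : z.support.card = 10) {a b c : Ω} (hab : a ≠ b) (hac : a ≠ c)
    (hbc : b ≠ c) (hcompl : z.supportᶜ = {a, b, c}) {g : Perm Ω} (hgG : g ∈ G) (ga : g a = b)
    (gb : g b = c) (gc : g c = a) : alternatingGroup Ω ≤ G := by
  have hzfix : ∀ w, z w = w ↔ w = a ∨ w = b ∨ w = c := by
    intro w
    have : w ∈ z.supportᶜ ↔ z w = w := by simp
    rw [← this, hcompl]
    simp
  have hza := (hzfix a).2 (Or.inl rfl)
  have hzb := (hzfix b).2 (Or.inr (Or.inl rfl))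
  have hzc := (hzfix c).2 (Or.inr (Or.inr rfl))
  let R : Subgroup (Perm Ω) := stabG (stabG (stabG G a) b) c
  have hzR : z ∈ R := ⟨⟨⟨hzG, hza⟩, hzb⟩, hzc⟩
  let zR : R := ⟨z, hzR⟩
  have hzRo : orderOf zR = 5 := by rw [← hz]; exact Subgroup.orderOf_mk z _
  have hV : ∀ v : R, v * zR = zR * v → (∃ e : ℕ, orderOf v = 5 ^ e) → v ∈ zpowers zR := by
    intro v hc he
    have hc' : (v : Perm Ω) * z = z * (v : Perm Ω) := congrArg Subtype.val hc
    have he' : ∃ e : ℕ, orderOf (v : Perm Ω) = 5 ^ e := by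
      obtain ⟨e, he⟩ := he
      exact ⟨e, by rw [Subgroup.orderOf_coe]; exact he⟩
    have hmem := mem_zpowers_of_comm hno5 hzG hz hz10 v.2.1.1.1 hc' he' (by
      intro w hw
      rcases (hzfix w).1 hw with rfl | rfl | rfl
      · exact v.2.1.1.2
      · exact v.2.1.2
      · exact v.2.2)
    obtain ⟨k, hk⟩ := mem_zpowers_iff.1 hmem
    refine mem_zpowers_iff.2 ⟨k, Subtype.ext ?_⟩
    simpa [zR] using hk
  have hginv_a : g⁻¹ a = c := by rw [Perm.inv_eq_iff_eq]; exact gc.symm
  have hginv_b : g⁻¹ b = a := by rw [Perm.inv_eq_iff_eq]; exact ga.symm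
  have hginv_c : g⁻¹ c = b := by rw [Perm.inv_eq_iff_eq]; exact gb.symm
  have hz₂R : g * z * g⁻¹ ∈ R := by
    refine ⟨⟨⟨mul_mem (mul_mem hgG hzG) (inv_mem hgG), ?_⟩, ?_⟩, ?_⟩
    · rw [Perm.mul_apply, Perm.mul_apply, hginv_a, hzc, gc]
    · rw [Perm.mul_apply, Perm.mul_apply, hginv_b, hza, ga]
    · rw [Perm.mul_apply, Perm.mul_apply, hginv_c, hzb, gb]
  let z₂R : R := ⟨g * z * g⁻¹, hz₂R⟩
  have hz₂Ro : orderOf z₂R = 5 := by
    rw [← hz, ← (MulAut.conj g).orderOf_eq z]
    exact Subgroup.orderOf_mk _ _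
  obtain ⟨r, hr⟩ := sylow_conj zR hzRo hV z₂R hz₂Ro
  obtain ⟨n, hn⟩ := (mem_powers_iff_mem_zpowers).2 hr
  have hn' : (r : Perm Ω) * (g * z * g⁻¹) * (r : Perm Ω)⁻¹ = z ^ n :=
    (congrArg Subtype.val hn).symm
  set w := (r : Perm Ω) * g with hw
  have hwG : w ∈ G := mul_mem r.2.1.1.1 hgG
  have hwz : w * z * w⁻¹ = z ^ n := by
    rw [← hn', hw]; group
  have wa : w a = b := by rw [hw, Perm.mul_apply, ga]; exact r.2.1.2
  have wb : w b = c := by rw [hw, Perm.mul_apply, gb]; exact r.2.2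
  have wc : w c = a := by rw [hw, Perm.mul_apply, gc]; exact r.2.1.1.2
  -- the `3`-part
  obtain ⟨e, t, ht3, htN⟩ := Nat.exists_eq_pow_mul_and_not_dvd (orderOf_pos w).ne' 3 (by norm_num)
  have hcop : Nat.Coprime t 3 := by
    apply Nat.Coprime.symm
    rw [Nat.Prime.coprime_iff_not_dvd Nat.prime_three]
    exact ht3
  obtain ⟨m, -, hm⟩ := Nat.exists_mul_mod_eq_one_of_coprime hcop (by norm_num)
  set s := t * m / 3 with hs
  have hts : t * m = 3 * s + 1 := by omega
  set w' := w ^ (t * m) with hw'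
  have hw'G : w' ∈ G := pow_mem hwG _
  have hw'e : w' ^ (3 ^ e) = 1 := by
    rw [hw', ← pow_mul, show t * m * 3 ^ e = (3 ^ e * t) * m by ring, ← htN, pow_mul,
      pow_orderOf_eq_one, one_pow]
  have hodd : Odd (orderOf w') :=
    Odd.of_dvd_nat (Odd.pow (by decide)) (orderOf_dvd_of_pow_eq_one hw'e)
  have hw3 : ∀ u, w (w (w u)) = u → ∀ s' : ℕ, ((w ^ 3) ^ s') u = u := by
    intro u hu s'
    apply pow_apply_eq_self_of_apply_eq_self
    simpa [pow_succ, Perm.mul_apply] using hu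
  have hw'form : w' = (w ^ 3) ^ s * w := by
    rw [hw', hts, pow_add, pow_mul, pow_one]
  have w'a : w' a = b := by
    rw [hw'form, Perm.mul_apply, wa]
    exact hw3 b (by rw [wb, wc, wa]) s
  have w'b : w' b = c := by
    rw [hw'form, Perm.mul_apply, wb]
    exact hw3 c (by rw [wc, wa, wb]) s
  have w'c : w' c = a := by
    rw [hw'form, Perm.mul_apply, wc]
    exact hw3 a (by rw [wa, wb, wc]) s
  have hcomm : w' * z = z * w' :=
    comm_of_odd w' z hz (conj_pow_pow w z hwz (t * m)) hodd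
  -- `w'` is trivial on the support of `z`
  have hfixS : ∀ u, z u ≠ u → w' u = u := by
    intro u hu
    obtain ⟨i, hi⟩ := orbit_of_comm hz hz10 hcomm hodd hu
    have hpow : ∀ k : ℕ, (w' ^ k) u = (z ^ (i * k)) u := by
      intro k
      induction k with
      | zero => simp
      | succ k ih =>
        rw [pow_succ, Perm.mul_apply, hi]
        have hcp : (w' ^ k) * z = z * (w' ^ k) :=
          ((show Commute w' z from hcomm).pow_left k).eq
        rw [comm_pow_apply hcp, ih, ← Perm.mul_apply, ← pow_add]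
        congr 2
        ring
    have h1 := hpow (3 ^ e)
    rw [hw'e] at h1
    have h5 : Nat.Prime 5 := by norm_num
    have hi5 : i % 5 = 0 := by
      by_contra hi0
      have hnd : ¬ 5 ∣ i * 3 ^ e := by
        intro hd
        rcases (Nat.Prime.dvd_mul h5).1 hd with h | h
        · exact hi0 (Nat.mod_eq_zero_of_dvd h)
        · have := h5.dvd_of_dvd_pow h
          omega
      have h2 : (z ^ ((i * 3 ^ e) % 5)) u = u := by
        rw [← hz, pow_mod_orderOf]
        exact h1.symm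
      exact pow_apply_ne h5 hz hu
        (Nat.pos_of_ne_zero fun h0 => hnd (Nat.dvd_of_mod_eq_zero h0))
        (Nat.mod_lt _ (by norm_num)) h2
    have hz1 : z ^ i = 1 := by
      rw [← pow_mod_orderOf, hz, hi5, pow_zero]
    rw [hi, hz1]
    rfl
  have hsupp : w'.support = {a, b, c} := by
    ext u
    rw [mem_support]
    simp only [Finset.mem_insert, Finset.mem_singleton]
    constructor
    · intro hu
      by_contra hn
      apply hu
      apply hfixS
      intro hz'
      apply hn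
      exact (hzfix u).1 hz'
    · rintro (rfl | rfl | rfl)
      · rw [w'a]; exact hab.symm
      · rw [w'b]; exact hbc.symm
      · rw [w'c]; exact hac
  have h3 : w'.IsThreeCycle := by
    rw [← card_support_eq_three_iff, hsupp, Finset.card_eq_three]
    exact ⟨a, b, c, hab, hac, hbc, rfl⟩
  exact Perm.alternatingGroup_le_of_isPreprimitive_of_isThreeCycle_mem hprim h3 hw'G

end Main

end Cfsg.Agent.Lib.AltTwoPrimes.Five
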