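import Mathlib

/-!
# A small Frobenius argument

A group of order `p (p + 1)`, with `6 ∣ p + 1`, cannot have a self-normalising subgroup of order
`p`: the normal complement of order `p + 1` would have all its non-trivial elements conjugate.
-/

set_option autoImplicit false

namespace Cfsg.Agent.Lib.AltTwoPrimes.Frob

open Subgroup

variable {L : Type*} [Group L] [Finite L]

/-- A Sylow subgroup from a cyclic subgroup of order `p`, when `p ^ 2` does not divide the order. -/
theorem exists_sylow_zpowers {p : ℕ} [hp : Fact p.Prime] (x : L) (hx : orderOf x = p)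
    (hcard : ¬ p ^ 2 ∣ Nat.card L) :
    ∃ P : Sylow p L, (P : Subgroup L) = zpowers x := by
  classical
  have hd : p ∣ Nat.card L := by
    rw [← hx]; exact orderOf_dvd_natCard x
  have hne : Nat.card L ≠ 0 := Nat.card_pos.ne'
  have hf : (Nat.card L).factorization p = 1 := by
    have h1 : 1 ≤ (Nat.card L).factorization p :=
      (hp.out.dvd_iff_one_le_factorization hne).1 hd
    have h2 : ¬ 2 ≤ (Nat.card L).factorization p := fun h =>
      hcard ((hp.out.pow_dvd_iff_le_factorization hne).2 h)
    omega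
  refine ⟨Sylow.ofCard (zpowers x) ?_, ?_⟩
  · rw [hf, pow_one, Nat.card_zpowers, hx]
  · simp

/-- The conjugates of an element `k` not normalising `⟨x⟩`: they are pairwise different. -/
theorem conj_inj {p : ℕ} (hp : p.Prime) (x k : L) (hx : orderOf x = p)
    (hk : ¬ Commute x k) : Function.Injective (fun i : Fin p => x ^ (i : ℕ) * k * (x ^ (i : ℕ))⁻¹) := by
  have key : ∀ i j : ℕ, i < j → j < p → x ^ i * k * (x ^ i)⁻¹ ≠ x ^ j * k * (x ^ j)⁻¹ := by
    intro i j hij hjp he
    apply hk
    have h1 : Commute (x ^ (j - i)) k := by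
      have e : x ^ j = x ^ i * x ^ (j - i) := by
        rw [← pow_add]; congr 1; omega
      rw [e] at he
      have h2 : k = x ^ (j - i) * k * (x ^ (j - i))⁻¹ := by
        have := congrArg (fun t => (x ^ i)⁻¹ * t * x ^ i) he
        simpa [mul_assoc, mul_inv_rev] using this
      show x ^ (j - i) * k = k * x ^ (j - i)
      calc x ^ (j - i) * k = x ^ (j - i) * k * (x ^ (j - i))⁻¹ * x ^ (j - i) := by group
        _ = k * x ^ (j - i) := by rw [← h2]
    have hcop : Nat.Coprime (j - i) p := by
      apply Nat.Coprime.symm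
      rw [hp.coprime_iff_not_dvd]
      intro hd
      have := Nat.le_of_dvd (by omega) hd
      omega
    obtain ⟨m, hm⟩ := Nat.exists_mul_mod_eq_one_of_coprime hcop hp.one_lt
    have h3 : x = (x ^ (j - i)) ^ m := by
      rw [← pow_mul, ← pow_mod_orderOf x ((j - i) * m), hx, hm.2, pow_one]
    rw [h3]
    exact h1.pow_left m
  intro i j hij
  simp only at hij
  rcases lt_trichotomy (i : ℕ) (j : ℕ) with h | h | h
  · exact absurd hij (key _ _ h j.2)
  · exact Fin.ext h
  · exact absurd hij.symm (key _ _ h i.2)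

/-- The Frobenius argument. -/
theorem frob {p : ℕ} [hp : Fact p.Prime] (x : L) (hx : orderOf x = p)
    (hcard : Nat.card L = p * (p + 1))
    (hN : ∀ g : L, g * x * g⁻¹ ∈ zpowers x → g ∈ zpowers x)
    (h2 : 2 ∣ p + 1) (h3 : 3 ∣ p + 1) : False := by
  classical
  haveI : Fintype L := Fintype.ofFinite L
  have hp1 := hp.out.one_lt
  have hndvd : ¬ p ^ 2 ∣ Nat.card L := by
    rw [hcard, pow_two]
    intro h
    have h1 : p ∣ p + 1 := Nat.dvd_of_mul_dvd_mul_left hp.out.pos h
    have h4 : p ∣ 1 := (Nat.dvd_add_right (dvd_refl p)).1 h1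
    exact hp.out.one_lt.ne' (Nat.dvd_one.1 h4)
  obtain ⟨P, hP⟩ := exists_sylow_zpowers x hx hndvd
  have hPc : normalizer (P : Subgroup L) ≤ centralizer ((P : Subgroup L) : Set L) := by
    intro g hg
    rw [hP] at hg ⊢
    have hgx : g ∈ zpowers x := by
      apply hN
      exact (mem_normalizer_iff.1 hg x).1 (mem_zpowers x)
    rw [mem_centralizer_iff]
    intro h hh
    obtain ⟨a, rfl⟩ := mem_zpowers_iff.1 hgx
    obtain ⟨b, rfl⟩ := mem_zpowers_iff.1 (show h ∈ zpowers x from hh)
    exact (Commute.refl x).zpow_zpow b a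
  set K := (MonoidHom.transferSylow P hPc).ker with hK
  have hcompl : IsComplement' K (P : Subgroup L) := MonoidHom.ker_transferSylow_isComplement' P hPc
  have hKn : K.Normal := MonoidHom.normal_ker _
  have hcardK : Nat.card K = p + 1 := by
    have h := hcompl.card_mul_card
    rw [hP, Nat.card_zpowers, hx, hcard, mul_comm] at h
    exact Nat.eq_of_mul_eq_mul_left hp.out.pos h
  -- elements of orders 2 and 3 in K
  haveI : Fact (Nat.Prime 2) := ⟨Nat.prime_two⟩
  haveI : Fact (Nat.Prime 3) := ⟨Nat.prime_three⟩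
  obtain ⟨k2, hk2⟩ := exists_prime_orderOf_dvd_card' (G := K) 2 (by rw [hcardK]; exact h2)
  obtain ⟨k3, hk3⟩ := exists_prime_orderOf_dvd_card' (G := K) 3 (by rw [hcardK]; exact h3)
  have hk2' : orderOf (k2 : L) = 2 := by rw [Subgroup.orderOf_coe]; exact hk2
  have hk3' : orderOf (k3 : L) = 3 := by rw [Subgroup.orderOf_coe]; exact hk3
  have hdisj : ∀ k : L, k ∈ K → k ∈ zpowers x → k = 1 := by
    intro k hk hkx
    have := hcompl.disjoint
    rw [hP] at this
    exact Subgroup.disjoint_def.1 this hk hkx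
  -- `x` does not commute with `k2`
  have hnc : ¬ Commute x (k2 : L) := by
    intro hc
    have h1 : (k2 : L) * x * (k2 : L)⁻¹ ∈ zpowers x := by
      rw [show (k2 : L) * x * (k2 : L)⁻¹ = x by
        rw [mul_inv_eq_iff_eq_mul]; exact hc.symm.eq]
      exact mem_zpowers x
    have h4 := hdisj _ k2.2 (hN _ h1)
    rw [h4, orderOf_one] at hk2'
    omega
  have hinj := conj_inj hp.out x (k2 : L) hx hnc
  -- the image lies in `K \ {1}`
  let S : Finset L := (Finset.univ.filter (fun g : L => g ∈ K)).erase 1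
  have hScard : S.card = p := by
    have h4 : (Finset.univ.filter (fun g : L => g ∈ K)).card = p + 1 := by
      rw [← hcardK, Nat.card_eq_fintype_card, Fintype.card_subtype]
    rw [Finset.card_erase_of_mem (by simp [K.one_mem]), h4]
    rfl
  have himg : ∀ i : Fin p, x ^ (i : ℕ) * (k2 : L) * (x ^ (i : ℕ))⁻¹ ∈ S := by
    intro i
    simp only [S, Finset.mem_erase, Finset.mem_filter, Finset.mem_univ, true_and]
    refine ⟨?_, hKn.conj_mem _ k2.2 _⟩
    intro h1
    have h5 : (k2 : L) = 1 := by
      have : (k2 : L) = (x ^ (i : ℕ))⁻¹ * (x ^ (i : ℕ) * (k2 : L) * (x ^ (i : ℕ))⁻¹) * x ^ (i : ℕ) := by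
        group
      rw [this, h1]; group
    rw [h5, orderOf_one] at hk2'
    omega
  have hsurj : Function.Surjective (fun i : Fin p => (⟨_, himg i⟩ : S)) := by
    have hinj' : Function.Injective (fun i : Fin p => (⟨_, himg i⟩ : S)) := by
      intro i j h
      exact hinj (congrArg Subtype.val h)
    exact (Fintype.bijective_iff_injective_and_card _).2
      ⟨hinj', by simp [hScard]⟩ |>.2
  have hk3S : (k3 : L) ∈ S := by
    simp only [S, Finset.mem_erase, Finset.mem_filter, Finset.mem_univ, true_and]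
    refine ⟨?_, k3.2⟩
    intro h1
    rw [h1, orderOf_one] at hk3'
    omega
  obtain ⟨i, hi⟩ := hsurj ⟨_, hk3S⟩
  have hi' : x ^ (i : ℕ) * (k2 : L) * (x ^ (i : ℕ))⁻¹ = k3 := congrArg Subtype.val hi
  have h6 : orderOf (k3 : L) = orderOf (k2 : L) := by
    rw [← hi']
    exact (MulAut.conj (x ^ (i : ℕ))).orderOf_eq (k2 : L)
  omega

end Cfsg.Agent.Lib.AltTwoPrimes.Frob
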