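import Mathlib

/-!
# Two primes in `(m / 2, m]` at distance at least three

From the estimate of the central binomial coefficient (the proof of Bertrand's postulate).
-/

set_option autoImplicit false

namespace Cfsg.Agent.Lib.AltTwoPrimes.Primes

open Nat Finset

/-- The part of the central binomial coefficient from primes at most `2 n / 3`. -/
theorem prod_small_le (n : ℕ) (n_pos : 0 < n) :
    ∏ p ∈ Finset.range (2 * n / 3 + 1), p ^ (centralBinom n).factorization p
      ≤ (2 * n) ^ sqrt (2 * n) * 4 ^ (2 * n / 3) := by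
  have n2_pos : 1 ≤ 2 * n := mul_pos (zero_lt_two' ℕ) n_pos
  let S := {p ∈ Finset.range (2 * n / 3 + 1) | Nat.Prime p}
  let f x := x ^ n.centralBinom.factorization x
  have : ∏ x ∈ S, f x = ∏ x ∈ Finset.range (2 * n / 3 + 1), f x := by
    refine Finset.prod_filter_of_ne fun p _ h => ?_
    contrapose! h; dsimp only [f]
    rw [factorization_eq_zero_of_not_prime n.centralBinom h, _root_.pow_zero]
  rw [show (∏ p ∈ Finset.range (2 * n / 3 + 1), p ^ (centralBinom n).factorization p)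
    = ∏ x ∈ Finset.range (2 * n / 3 + 1), f x from rfl, ← this, ←
    Finset.prod_filter_mul_prod_filter_not S (· ≤ sqrt (2 * n))]
  apply mul_le_mul'
  · refine (Finset.prod_le_prod' fun p _ => (?_ : f p ≤ 2 * n)).trans ?_
    · exact pow_factorization_choose_le (mul_pos two_pos n_pos)
    have : (Finset.Icc 1 (sqrt (2 * n))).card = sqrt (2 * n) := by rw [card_Icc, Nat.add_sub_cancel]
    rw [Finset.prod_const]
    refine pow_right_mono₀ n2_pos ((Finset.card_le_card fun x hx => ?_).trans this.le)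
    obtain ⟨h1, h2⟩ := Finset.mem_filter.1 hx
    exact Finset.mem_Icc.mpr ⟨(Finset.mem_filter.1 h1).2.one_lt.le, h2⟩
  · refine le_trans ?_ (primorial_le_four_pow (2 * n / 3))
    refine (Finset.prod_le_prod' fun p hp => (?_ : f p ≤ p)).trans ?_
    · obtain ⟨h1, h2⟩ := Finset.mem_filter.1 hp
      refine (pow_right_mono₀ (Finset.mem_filter.1 h1).2.one_lt.le ?_).trans (pow_one p).le
      exact Nat.factorization_choose_le_one (sqrt_lt'.mp <| not_le.1 h2)
    refine Finset.prod_le_prod_of_subset_of_one_le' (Finset.filter_subset _ _) ?_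
    exact fun p hp _ => (Finset.mem_filter.1 hp).2.one_lt.le

/-- The central binomial coefficient, when at most two primes lie in `(n, 2 n]`. -/
theorem centralBinom_le (n : ℕ) (n_large : 2 < n)
    (hT : ((Finset.Ioc n (2 * n)).filter Nat.Prime).card ≤ 2) :
    centralBinom n ≤ (2 * n) ^ 2 * ((2 * n) ^ sqrt (2 * n) * 4 ^ (2 * n / 3)) := by
  have n_pos : 0 < n := by omega
  set T := (Finset.Ioc n (2 * n)).filter Nat.Prime with hTdef
  set R := Finset.range (2 * n / 3 + 1) with hR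
  let f : ℕ → ℕ := fun x => x ^ n.centralBinom.factorization x
  have hdisj : Disjoint T R := by
    rw [Finset.disjoint_left]
    intro a ha hb
    have h1 := (Finset.mem_Ioc.1 (Finset.mem_filter.1 ha).1).1
    have h2 := Finset.mem_range.1 hb
    omega
  have hsub : T ∪ R ⊆ Finset.range (2 * n + 1) := by
    intro a ha
    rcases Finset.mem_union.1 ha with ha | ha
    · have h1 := (Finset.mem_Ioc.1 (Finset.mem_filter.1 ha).1).2
      exact Finset.mem_range.2 (by omega)
    · have h2 := Finset.mem_range.1 ha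
      exact Finset.mem_range.2 (by omega)
  have h1 : ∏ x ∈ T ∪ R, f x = ∏ x ∈ Finset.range (2 * n + 1), f x := by
    apply Finset.prod_subset hsub
    intro x hx hx2
    have hxle : x ≤ 2 * n := by have := Finset.mem_range.1 hx; omega
    by_cases hpx : x.Prime
    · have hx1 : x ∉ T := fun h => hx2 (Finset.mem_union_left _ h)
      have hx3 : x ∉ R := fun h => hx2 (Finset.mem_union_right _ h)
      have hxn : x ≤ n := by
        by_contra hlt
        exact hx1 (Finset.mem_filter.2 ⟨Finset.mem_Ioc.2 ⟨by omega, hxle⟩, hpx⟩)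
      have hx4 : 2 * n < 3 * x := by
        by_contra hlt
        apply hx3
        apply Finset.mem_range.2
        omega
      simp only [f]
      rw [factorization_centralBinom_of_two_mul_self_lt_three_mul n_large hxn hx4, Nat.pow_zero]
    · simp only [f]
      rw [factorization_eq_zero_of_not_prime n.centralBinom hpx, Nat.pow_zero]
  have h2 : centralBinom n = (∏ x ∈ T, f x) * ∏ x ∈ R, f x := by
    rw [← Finset.prod_union hdisj, h1]
    exact (Nat.prod_pow_factorization_centralBinom n).symm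
  rw [h2]
  apply Nat.mul_le_mul
  · have h3 : ∏ x ∈ T, f x ≤ ∏ _x ∈ T, (2 * n) :=
      Finset.prod_le_prod' fun p _ => pow_factorization_choose_le (mul_pos two_pos n_pos)
    rw [Finset.prod_const] at h3
    exact h3.trans (Nat.pow_le_pow_right (by omega) hT)
  · exact prod_small_le n n_pos

/-- The elementary estimate. -/
theorem numeric_aux (k : ℕ) (hk : 7 ≤ k) :
    3 * (2 * k + 1) + 3 * ((2 * k + 2) * (2 + 2 * 2 ^ k)) ≤ 4 ^ k := by
  induction k, hk using Nat.le_induction with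
  | base => norm_num
  | succ k hk ih =>
    have h1 : (4 : ℕ) ^ (k + 1) = 4 * 4 ^ k := by rw [pow_succ]; ring
    have h2 : (2 : ℕ) ^ (k + 1) = 2 * 2 ^ k := by rw [pow_succ]; ring
    rw [h1, h2]
    have h3 : (2 * (k + 1) + 2) * (2 + 2 * (2 * 2 ^ k)) ≤ 4 * ((2 * k + 2) * (2 + 2 * 2 ^ k)) := by
      have e1 : 2 * (k + 1) + 2 ≤ 2 * (2 * k + 2) := by omega
      have e2 : 2 + 2 * (2 * 2 ^ k) ≤ 2 * (2 + 2 * 2 ^ k) := by omega
      calc (2 * (k + 1) + 2) * (2 + 2 * (2 * 2 ^ k))
          ≤ (2 * (2 * k + 2)) * (2 * (2 + 2 * 2 ^ k)) := Nat.mul_le_mul e1 e2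
        _ = 4 * ((2 * k + 2) * (2 + 2 * 2 ^ k)) := by ring
    omega

/-- There are three primes in `(n, 2 n]` when `n ≥ 8192`. -/
theorem three_primes (n : ℕ) (hn : 8192 ≤ n) :
    3 ≤ ((Finset.Ioc n (2 * n)).filter Nat.Prime).card := by
  by_contra hlt
  have hT : ((Finset.Ioc n (2 * n)).filter Nat.Prime).card ≤ 2 := by omega
  have h1 := centralBinom_le n (by omega) hT
  have h2 := Nat.four_pow_lt_mul_centralBinom n (by omega)
  set k := Nat.log 4 (2 * n) with hk
  have hk1 : 4 ^ k ≤ 2 * n := Nat.pow_log_le_self 4 (by omega)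
  have hk2 : 2 * n < 4 ^ (k + 1) := Nat.lt_pow_succ_log_self (by norm_num) _
  have hk7 : 7 ≤ k := by
    apply Nat.le_log_of_pow_le (by norm_num)
    norm_num
    omega
  have hnum := numeric_aux k hk7
  have h4 : (4 : ℕ) ^ (k + 1) = 2 ^ (2 * k + 2) := by
    rw [show (4 : ℕ) = 2 ^ 2 by norm_num, ← pow_mul]; congr 1
  have hs : sqrt (2 * n) < 2 ^ (k + 1) := by
    rw [Nat.sqrt_lt']
    rw [← pow_mul, show (k + 1) * 2 = 2 * k + 2 by ring, ← h4]
    exact hk2
  have h5 : n < 2 ^ (2 * k + 1) := by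
    have : 2 ^ (2 * k + 2) = 2 * 2 ^ (2 * k + 1) := by rw [pow_succ]; ring
    omega
  have h6 : 2 * n < 2 ^ (2 * k + 2) := by rw [← h4]; exact hk2
  -- bound everything by powers of two
  have hb1 : (2 * n) ^ 2 * ((2 * n) ^ sqrt (2 * n)) ≤ (2 ^ (2 * k + 2)) ^ (2 + 2 ^ (k + 1)) := by
    rw [← pow_add]
    calc (2 * n) ^ (2 + sqrt (2 * n)) ≤ (2 ^ (2 * k + 2)) ^ (2 + sqrt (2 * n)) :=
          Nat.pow_le_pow_left h6.le _
      _ ≤ (2 ^ (2 * k + 2)) ^ (2 + 2 ^ (k + 1)) :=
          Nat.pow_le_pow_right (by positivity) (by omega)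
  have hb2 : (4 : ℕ) ^ (2 * n / 3) = 2 ^ (2 * (2 * n / 3)) := by
    rw [show (4 : ℕ) = 2 ^ 2 by norm_num, ← pow_mul]
  have hb3 : (4 : ℕ) ^ n = 2 ^ (2 * n) := by
    rw [show (4 : ℕ) = 2 ^ 2 by norm_num, ← pow_mul]
  have hmain : (4 : ℕ) ^ n < 2 ^ (2 * k + 1) * ((2 ^ (2 * k + 2)) ^ (2 + 2 ^ (k + 1)) * 2 ^ (2 * (2 * n / 3))) := by
    calc (4 : ℕ) ^ n < n * centralBinom n := h2
      _ ≤ n * ((2 * n) ^ 2 * ((2 * n) ^ sqrt (2 * n) * 4 ^ (2 * n / 3))) :=
          Nat.mul_le_mul_left _ h1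
      _ = n * (((2 * n) ^ 2 * ((2 * n) ^ sqrt (2 * n))) * 4 ^ (2 * n / 3)) := by ring
      _ ≤ 2 ^ (2 * k + 1) * (((2 ^ (2 * k + 2)) ^ (2 + 2 ^ (k + 1))) * 2 ^ (2 * (2 * n / 3))) := by
          rw [hb2]
          exact Nat.mul_le_mul h5.le (Nat.mul_le_mul_right _ hb1)
  rw [hb3, ← pow_mul, ← pow_add, ← pow_add] at hmain
  have hexp := (Nat.pow_lt_pow_iff_right (a := 2) (by norm_num)).1 hmain
  have h7 : (2 : ℕ) ^ (k + 1) = 2 * 2 ^ k := by rw [pow_succ]; ring
  rw [h7] at hexp
  have h8 : 3 * (2 * n / 3) ≤ 2 * n := Nat.mul_div_le _ _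
  omega

/-- Two primes in `(m / 2, m]` with difference at least three. -/
theorem exists_pair (m : ℕ) (hm : 17 ≤ m) :
    ∃ p q : ℕ, p.Prime ∧ q.Prime ∧ m < 2 * p ∧ p + 3 ≤ q ∧ q ≤ m := by
  by_cases h0 : 21734 ≤ m
  · have h3 := three_primes (m / 2) (by omega)
    obtain ⟨a, ha, b, hb, c, hc, hab, hac, hbc⟩ := Finset.two_lt_card.1 h3
    obtain ⟨ha1, hap⟩ := Finset.mem_filter.1 ha
    obtain ⟨hb1, hbp⟩ := Finset.mem_filter.1 hb
    obtain ⟨hc1, hcp⟩ := Finset.mem_filter.1 hc
    obtain ⟨ha2, ha3⟩ := Finset.mem_Ioc.1 ha1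
    obtain ⟨hb2, hb3⟩ := Finset.mem_Ioc.1 hb1
    obtain ⟨hc2, hc3⟩ := Finset.mem_Ioc.1 hc1
    have oa : a % 2 = 1 := (hap.eq_two_or_odd).resolve_left (by omega)
    have ob : b % 2 = 1 := (hbp.eq_two_or_odd).resolve_left (by omega)
    have oc : c % 2 = 1 := (hcp.eq_two_or_odd).resolve_left (by omega)
    -- among three distinct odd numbers two differ by at least four
    have key : (a + 3 ≤ b) ∨ (b + 3 ≤ a) ∨ (a + 3 ≤ c) ∨ (c + 3 ≤ a) ∨ (b + 3 ≤ c) ∨ (c + 3 ≤ b) := by
      omega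
    rcases key with h | h | h | h | h | h
    · exact ⟨a, b, hap, hbp, by omega, h, by omega⟩
    · exact ⟨b, a, hbp, hap, by omega, h, by omega⟩
    · exact ⟨a, c, hap, hcp, by omega, h, by omega⟩
    · exact ⟨c, a, hcp, hap, by omega, h, by omega⟩
    · exact ⟨b, c, hbp, hcp, by omega, h, by omega⟩
    · exact ⟨c, b, hcp, hbp, by omega, h, by omega⟩
  · have hchain : ∀ p q : ℕ, p.Prime → q.Prime → p + 3 ≤ q → q ≤ m → m < 2 * p →
        ∃ p q : ℕ, p.Prime ∧ q.Prime ∧ m < 2 * p ∧ p + 3 ≤ q ∧ q ≤ m :=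
      fun p q hp hq h1 h2 h3 => ⟨p, q, hp, hq, h3, h1, h2⟩
    by_cases h1 : m ≤ 25
    · exact hchain 13 17 (by norm_num) (by norm_num) (by norm_num) (by omega) (by omega)
    by_cases h2 : m ≤ 37
    · exact hchain 19 23 (by norm_num) (by norm_num) (by norm_num) (by omega) (by omega)
    by_cases h3 : m ≤ 61
    · exact hchain 31 37 (by norm_num) (by norm_num) (by norm_num) (by omega) (by omega)
    by_cases h4 : m ≤ 105
    · exact hchain 53 61 (by norm_num) (by norm_num) (by norm_num) (by omega) (by omega)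
    by_cases h5 : m ≤ 193
    · exact hchain 97 103 (by norm_num) (by norm_num) (by norm_num) (by omega) (by omega)
    by_cases h6 : m ≤ 361
    · exact hchain 181 193 (by norm_num) (by norm_num) (by norm_num) (by omega) (by omega)
    by_cases h7 : m ≤ 705
    · exact hchain 353 359 (by norm_num) (by norm_num) (by norm_num) (by omega) (by omega)
    by_cases h8 : m ≤ 1381
    · exact hchain 691 701 (by norm_num) (by norm_num) (by norm_num) (by omega) (by omega)
    by_cases h9 : m ≤ 2745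
    · exact hchain 1373 1381 (by norm_num) (by norm_num) (by norm_num) (by omega) (by omega)
    by_cases h10 : m ≤ 5461
    · exact hchain 2731 2741 (by norm_num) (by norm_num) (by norm_num) (by omega) (by omega)
    by_cases h11 : m ≤ 10885
    · exact hchain 5443 5449 (by norm_num) (by norm_num) (by norm_num) (by omega) (by omega)
    · exact hchain 10867 10883 (by norm_num) (by norm_num) (by norm_num) (by omega) (by omega)

end Cfsg.Agent.Lib.AltTwoPrimes.Primes
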