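import Cfsg.Agent.Lib.AltTwoPrimes.Five
import Cfsg.Agent.Lib.AltTwoPrimes.Primes
import Cfsg.Agent.Lib.PermIndex.Six

/-!
# Two primes forcing alternating generation
-/

set_option autoImplicit false

namespace Cfsg.Agent.Lib.AltTwoPrimes.Main

open Equiv Equiv.Perm MulAction Subgroup
open Cfsg.Agent.Lib.AltTwoPrimes.Core Cfsg.Agent.Lib.AltTwoPrimes.Twin
open scoped Pointwise

section Eleven

variable {Ω : Type*} [Fintype Ω] [DecidableEq Ω] {G : Subgroup (Perm Ω)} {x y : Perm Ω}

/-- An element permuting `a, b, c` cyclically. -/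
theorem exists_three (D : Data G x y 11) {a b c : Ω} (P : Pts x a b) (hca : c ≠ a) (hcb : c ≠ b) :
    ∃ g ∈ G, g a = b ∧ g b = c ∧ g c = a := by
  obtain ⟨i, hi⟩ := D.ytrans b a
  set g₁ := y ^ i with hg₁
  have hg₁G : g₁ ∈ G := pow_mem D.hyG i
  have hv : g₁ c ≠ a := by
    intro h
    apply hcb
    apply g₁.injective
    rw [h, hi]
  obtain ⟨g₂, hg₂G, hg₂a, hg₂v⟩ := D.two_trans P hv
  have hv₂a : g₂ (g₁ a) ≠ a := by
    intro h
    apply P.hab
    apply g₁.injective
    apply g₂.injective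
    rw [h, hi, hg₂a]
  have hv₂b : g₂ (g₁ a) ≠ b := by
    intro h
    apply hca
    apply g₁.injective
    apply g₂.injective
    rw [h, hg₂v]
  obtain ⟨j, hj⟩ := D.xtrans P hv₂a hv₂b hca hcb
  set h := x ^ j * g₂ * g₁ with hh
  have hG : h ∈ G := mul_mem (mul_mem (pow_mem D.hxG j) hg₂G) hg₁G
  have hb : h b = a := by
    rw [hh, Perm.mul_apply, Perm.mul_apply, hi, hg₂a]
    exact pow_apply_eq_self_of_apply_eq_self P.xa j
  have hc : h c = b := by
    rw [hh, Perm.mul_apply, Perm.mul_apply, hg₂v]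
    exact pow_apply_eq_self_of_apply_eq_self P.xb j
  have ha : h a = c := by
    rw [hh, Perm.mul_apply, Perm.mul_apply, hj]
  refine ⟨h⁻¹, inv_mem hG, ?_, ?_, ?_⟩
  · rw [Perm.inv_eq_iff_eq]; exact hb.symm
  · rw [Perm.inv_eq_iff_eq]; exact hc.symm
  · rw [Perm.inv_eq_iff_eq]; exact ha.symm

/-- Degree thirteen. -/
theorem alt_eleven (D : Data G x y 11) (hev : ∀ g ∈ G, sign g = 1) : alternatingGroup Ω ≤ G := by
  by_contra hA
  obtain ⟨a, b, P⟩ := D.exists_pts
  have hno5 : ∀ c ∈ G, c.IsCycle → c.support.card = 5 → False := fun c hc hcc hs =>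
    hA (D.alt_of_cycle hc hcc (ℓ := 5) (by norm_num) hs (by norm_num))
  by_cases hN : ∀ g : stabG (stabG G a) b,
      g * ⟨x, D.x_mem_T P⟩ * g⁻¹ ∈ zpowers (⟨x, D.x_mem_T P⟩ : stabG (stabG G a) b) →
        g ∈ zpowers (⟨x, D.x_mem_T P⟩ : stabG (stabG G a) b)
  · exact D.no_sharp P (by norm_num) (Twin11.T_eq D P hN)
  · push Not at hN
    obtain ⟨g, hg1, hg2⟩ := hN
    obtain ⟨n, hn⟩ := (mem_powers_iff_mem_zpowers).2 hg1
    have hn' : (g : Perm Ω) * x * (g : Perm Ω)⁻¹ = x ^ n := (congrArg Subtype.val hn).symm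
    have hgnot : (g : Perm Ω) ∉ zpowers x := by
      intro hm
      apply hg2
      obtain ⟨k, hk⟩ := mem_zpowers_iff.1 hm
      refine mem_zpowers_iff.2 ⟨k, Subtype.ext ?_⟩
      simpa using hk
    obtain ⟨c, z, hc, hzG, -, -, -, hzo, hz10, hcompl⟩ :=
      Twin11.exists_z D P hev g.2.1.1 g.2.1.2 g.2.2 hn' hgnot
    have hca : c ≠ a := fun h => hc (by rw [h, P.xa])
    have hcb : c ≠ b := fun h => hc (by rw [h, P.xb])
    obtain ⟨g₃, hg₃G, ga, gb, gc⟩ := exists_three D P hca hcb
    exact hA (Five.final D.prim hno5 hzG hzo hz10 P.hab hca.symm hcb.symm hcompl hg₃G ga gb gc)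

end Eleven

section Gen

variable {α : Type*} [Fintype α] [DecidableEq α]

theorem card_Dl_ge (x y : Perm α) : y.support.card ≤ (Dl x y).card :=
  Finset.card_le_card Finset.subset_union_right

theorem card_Dl_ge' (x y : Perm α) : x.support.card ≤ (Dl x y).card :=
  Finset.card_le_card Finset.subset_union_left

theorem card_Dl_le (x y : Perm α) : (Dl x y).card ≤ Fintype.card α := Finset.card_le_univ _

/-- The standing hypotheses. -/
structure Hyp (x y : Perm α) (p q : ℕ) : Prop where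
  hp : p.Prime
  hq : q.Prime
  hp3 : 3 ≤ p
  hpq : p < q
  hxo : orderOf x = p
  hyo : orderOf y = q
  hm : Fintype.card α ≤ 2 * p

namespace Hyp

variable {x y : Perm α} {p q : ℕ} (H : Hyp x y p q)
include H

theorem c1 : Fintype.card α < p + q := by have := H.hm; have := H.hpq; omega
theorem c2 : Fintype.card α < 2 * q := by have := H.hm; have := H.hpq; omega

theorem ycyc : y.IsCycle :=
  isCycle_of_prime_order' (by rw [H.hyo]; exact H.hq) (by rw [H.hyo]; exact H.c2)

theorem ysupp : y.support.card = q := by rw [← H.hyo]; exact H.ycyc.orderOf.symm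

theorem d_ge : q ≤ (Dl x y).card := by rw [← H.ysupp]; exact card_Dl_ge x y

theorem prim : IsPreprimitive (Hres x y) {a // a ∈ Dl x y} :=
  prim_Hres x y H.hp H.hq H.hxo H.hyo H.ycyc H.c1 H.c2

theorem resR_cyc : (resR x y).IsCycle :=
  isCycle_of_prime_order (by rw [orderOf_resR, H.hyo]; exact H.hq)
    (by rw [orderOf_resR, H.hyo, card_support_resR, H.ysupp]; have := H.hq.pos; omega)

theorem resL_cyc (hs : x.support.card < 2 * p) : (resL x y).IsCycle :=
  isCycle_of_prime_order (by rw [orderOf_resL, H.hxo]; exact H.hp)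
    (by rw [orderOf_resL, H.hxo, card_support_resL]; exact hs)

theorem resL_supp (hs : x.support.card < 2 * p) : (resL x y).support.card = p := by
  rw [← H.hxo, ← orderOf_resL x y]; exact (H.resL_cyc hs).orderOf.symm

theorem resR_supp : (resR x y).support.card = q := by
  rw [card_support_resR, H.ysupp]

theorem alt_y (hd : q + 3 ≤ (Dl x y).card) : alternatingGroup _ ≤ Hres x y :=
  Cfsg.Agent.Lib.Perm.JordanPrime.jordan_prime_cycle _ H.prim H.hq
    (by rw [card_Dl]; exact hd) H.resR_cyc H.resR_supp (hres_right_mem x y)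

theorem alt_x (hs : x.support.card < 2 * p) (hd : p + 3 ≤ (Dl x y).card) :
    alternatingGroup _ ≤ Hres x y :=
  Cfsg.Agent.Lib.Perm.JordanPrime.jordan_prime_cycle _ H.prim H.hp
    (by rw [card_Dl]; exact hd) (H.resL_cyc hs) (H.resL_supp hs) (hres_left_mem x y)

theorem alt_three (hp : p = 3) (hs : x.support.card < 6) : alternatingGroup _ ≤ Hres x y := by
  subst hp
  refine Perm.alternatingGroup_le_of_isPreprimitive_of_isThreeCycle_mem H.prim ?_ (hres_left_mem x y)
  rw [← card_support_eq_three_iff]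
  exact H.resL_supp hs

/-- The data for the twin case. -/
theorem data_twin (hq : q = p + 2) (hd : (Dl x y).card = p + 2) :
    Data (Hres x y) (resL x y) (resR x y) p where
  hp := H.hp
  hp3 := H.hp3
  hq := by rw [← hq]; exact H.hq
  hcard := by rw [card_Dl, hd]
  hxG := hres_left_mem x y
  hyG := hres_right_mem x y
  hxo := by rw [orderOf_resL, H.hxo]
  hyo := by rw [orderOf_resR, H.hyo, hq]

theorem odd_x : Odd (orderOf x) := by
  rw [H.hxo]; exact H.hp.odd_of_ne_two (by have := H.hp3; omega)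

theorem odd_y : Odd (orderOf y) := by
  rw [H.hyo]; exact H.hq.odd_of_ne_two (by have := H.hp3; have := H.hpq; omega)

theorem alt_five (hp : p = 5) (hq : q = 7) (hd : (Dl x y).card = 7) :
    alternatingGroup _ ≤ Hres x y := by
  subst hp; subst hq
  exact Twin.alt_five (H.data_twin rfl hd)

theorem alt_eleven (hp : p = 11) (hq : q = 13) (hd : (Dl x y).card = 13) :
    alternatingGroup _ ≤ Hres x y := by
  subst hp; subst hq
  exact Main.alt_eleven (H.data_twin rfl hd) fun g hg =>
    mem_alternatingGroup.1 (Hres_le_alt x y H.odd_x H.odd_y hg)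

/-- The conclusion. -/
theorem concl (h : alternatingGroup _ ≤ Hres x y) (h5 : 5 ≤ q) :
    ∃ d : ℕ, 5 ≤ d ∧ Nonempty (closure ({x, y} : Set (Perm α)) ≃* alternatingGroup (Fin d)) :=
  ⟨(Dl x y).card, h5.trans H.d_ge, iso_alt x y H.odd_x H.odd_y h⟩

end Hyp

end Gen

end Cfsg.Agent.Lib.AltTwoPrimes.Main
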