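import Cfsg.Agent.Lib.AltTwoPrimes.Main

/-!
# The exotic case in degree six
-/

set_option autoImplicit false

namespace Cfsg.Agent.Lib.AltTwoPrimes.SixCase

open Equiv Equiv.Perm Subgroup
open Cfsg.Agent.Lib.PermIndex.Basic Cfsg.Agent.Lib.PermIndex.Six

/-- The twist turns an element of type `3 + 3` into a `3`-cycle. -/
theorem exists_aut_three (x₀ : Perm (Fin 6)) (ho : orderOf x₀ = 3) (hs : x₀.support.card = 6) :
    ∃ β : Perm (Fin 6) ≃* Perm (Fin 6), (β x₀).IsThreeCycle := by
  obtain ⟨α, hα⟩ := exists_twisted (Ω := Fin 6) (by simp)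
  set s : Perm (Fin 6) := swap 0 1 with hs'
  set t : Perm (Fin 6) := swap 0 2 with ht'
  have hc₀ : (s * t).IsThreeCycle := isThreeCycle_swap_mul_swap_same (by decide) (by decide) (by decide)
  set σ := α s with hσ
  set τ := α t with hτ
  have hσ2 : σ * σ = 1 := by
    rw [hσ, ← map_mul, hs', swap_mul_self, map_one]
  have hτ2 : τ * τ = 1 := by
    rw [hτ, ← map_mul, ht', swap_mul_self, map_one]
  have hσa : ∀ w, σ (σ w) = w := fun w => by
    have := congrArg (fun g : Perm (Fin 6) => g w) hσ2
    simpa using this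
  have hτa : ∀ w, τ (τ w) = w := fun w => by
    have := congrArg (fun g : Perm (Fin 6) => g w) hτ2
    simpa using this
  have hσfree : ∀ w, σ w ≠ w := hα 0 1 (by decide)
  set ρ := σ * τ with hρ
  have hρe : ρ = α (s * t) := by rw [map_mul]
  have hρo : orderOf ρ = 3 := by
    rw [hρe, α.orderOf_eq]
    exact hc₀.orderOf
  obtain ⟨n, hn⟩ := cycleType_prime_order (σ := ρ) (by rw [hρo]; norm_num)
  have hsum := ρ.sum_cycleType
  rw [hn, hρo, Multiset.sum_replicate] at hsum
  simp only [smul_eq_mul] at hsum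
  have hle := Finset.card_le_univ ρ.support
  rw [Fintype.card_fin] at hle
  have hn01 : n = 0 ∨ n = 1 := by omega
  have hn1 : n = 1 := by
    rcases hn01 with h0 | h1
    · exfalso
      -- parity of the fixed points
      subst h0
      have hF : (ρ.supportᶜ).card = 3 := by
        rw [Finset.card_compl, Fintype.card_fin]; omega
      have hmem : ∀ w, w ∈ ρ.supportᶜ ↔ ρ w = w := by intro w; simp
      have hσF : ∀ w, w ∈ ρ.supportᶜ → σ w ∈ ρ.supportᶜ := by
        intro w hw
        rw [hmem] at hw ⊢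
        have h1 : σ (τ w) = w := hw
        have h2 : τ w = σ w := by
          have := congrArg σ h1
          rwa [hσa] at this
        show σ (τ (σ w)) = σ w
        rw [← h2, hτa]
        exact h2.symm
      have hsum0 : ∑ w ∈ ρ.supportᶜ, (1 : ZMod 2) = 0 := by
        refine Finset.sum_involution (fun w _ => σ w) ?_ ?_ ?_ ?_
        · intro a _; decide
        · intro a _ _; exact hσfree a
        · intro a ha; exact hσF a ha
        · intro a _; exact hσa a
      rw [Finset.sum_const, hF] at hsum0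
      exact absurd hsum0 (by decide)
    · exact h1
  -- conjugacy
  obtain ⟨n', hn'⟩ := cycleType_prime_order (σ := x₀) (by rw [ho]; norm_num)
  have hsum' := x₀.sum_cycleType
  rw [hn', ho, Multiset.sum_replicate, hs] at hsum'
  simp only [smul_eq_mul] at hsum'
  have hn1' : n' = 1 := by omega
  have hct : ρ.cycleType = x₀.cycleType := by
    rw [hn, hn', hρo, ho, hn1, hn1']
  obtain ⟨k, hk⟩ := isConj_iff.1 (isConj_iff_cycleType_eq.2 hct)
  refine ⟨α.symm, ?_⟩
  have h1 : x₀ = α ((α.symm k) * (s * t) * (α.symm k)⁻¹) := by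
    rw [map_mul, map_mul, map_inv, MulEquiv.apply_symm_apply, ← hρe]
    exact hk.symm
  rw [h1, MulEquiv.symm_apply_apply]
  have h2 := hc₀
  rw [IsThreeCycle] at h2 ⊢
  rw [cycleType_conj]
  exact h2

end Cfsg.Agent.Lib.AltTwoPrimes.SixCase
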