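import Cfsg.Agent.Lib.AltTwoPrimes.Core
import Cfsg.Agent.Lib.AltTwoPrimes.Frob
import Cfsg.Agent.Lib.PermRec.Bochert

/-!
# Twin primes

A group of even permutations of `p + 2` points (`p`, `p + 2` primes) containing a cycle of length
`p` and a cycle of length `p + 2`, for `p = 5, 11`, contains the alternating group.
-/

set_option autoImplicit false

namespace Cfsg.Agent.Lib.AltTwoPrimes.Twin

open Equiv Equiv.Perm MulAction Subgroup
open Cfsg.Agent.Lib.AltTwoPrimes.Core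
open scoped Pointwise

variable {Ω : Type*} [Fintype Ω] [DecidableEq Ω]

/-- The stabiliser of a point in a subgroup. -/
def stabG (H : Subgroup (Perm Ω)) (a : Ω) : Subgroup (Perm Ω) where
  carrier := {g | g ∈ H ∧ g a = a}
  mul_mem' := by
    rintro g h ⟨hg, hga⟩ ⟨hh, hha⟩
    exact ⟨mul_mem hg hh, by rw [Perm.mul_apply, hha, hga]⟩
  one_mem' := ⟨one_mem _, rfl⟩
  inv_mem' := by
    rintro g ⟨hg, hga⟩
    exact ⟨inv_mem hg, by rw [Perm.inv_eq_iff_eq]; exact hga.symm⟩

theorem mem_stabG {H : Subgroup (Perm Ω)} {a : Ω} {g : Perm Ω} :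
    g ∈ stabG H a ↔ g ∈ H ∧ g a = a := Iff.rfl

/-- Orbit-stabiliser. -/
theorem card_stabG (H : Subgroup (Perm Ω)) (a : Ω) (O : Finset Ω)
    (hO1 : ∀ g ∈ H, g a ∈ O) (hO2 : ∀ v ∈ O, ∃ g ∈ H, g a = v) :
    Nat.card H = O.card * Nat.card (stabG H a) := by
  have h1 : (MulAction.orbit H a) = (O : Set Ω) := by
    ext v
    constructor
    · rintro ⟨g, rfl⟩
      exact hO1 g.1 g.2
    · intro hv
      obtain ⟨g, hg, hga⟩ := hO2 v hv
      exact ⟨⟨g, hg⟩, hga⟩
  have h2 : (MulAction.stabilizer H a).index = O.card := by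
    rw [index_stabilizer, h1, Set.ncard_coe_finset]
  have h3 : Nat.card (MulAction.stabilizer H a) = Nat.card (stabG H a) := by
    refine Nat.card_congr
      { toFun := fun g => ⟨g.1.1, ⟨g.1.2, g.2⟩⟩
        invFun := fun g => ⟨⟨g.1, g.2.1⟩, g.2.2⟩
        left_inv := fun g => rfl
        right_inv := fun g => rfl }
  rw [← h2, ← h3, mul_comm]
  exact (card_mul_index _).symm

/-- The hypotheses on the two permutations. -/
structure Data (G : Subgroup (Perm Ω)) (x y : Perm Ω) (p : ℕ) : Prop where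
  hp : p.Prime
  hp3 : 3 ≤ p
  hq : (p + 2).Prime
  hcard : Fintype.card Ω = p + 2
  hxG : x ∈ G
  hyG : y ∈ G
  hxo : orderOf x = p
  hyo : orderOf y = p + 2

/-- The two fixed points of `x`. -/
structure Pts (x : Perm Ω) (a b : Ω) : Prop where
  hab : a ≠ b
  xa : x a = a
  xb : x b = b
  xm : ∀ u, u ≠ a → u ≠ b → x u ≠ u

namespace Data

variable {G : Subgroup (Perm Ω)} {x y : Perm Ω} {p : ℕ} (D : Data G x y p)
include D

theorem xcyc : x.IsCycle :=
  isCycle_of_prime_order' (by rw [D.hxo]; exact D.hp) (by rw [D.hxo, D.hcard]; have := D.hp3; omega)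

theorem ycyc : y.IsCycle :=
  isCycle_of_prime_order' (by rw [D.hyo]; exact D.hq) (by rw [D.hyo, D.hcard]; omega)

theorem xsupp : x.support.card = p := by rw [← D.hxo]; exact D.xcyc.orderOf.symm

theorem ysupp : y.support = Finset.univ := by
  apply Finset.eq_univ_of_card
  rw [D.hcard, ← D.hyo]; exact D.ycyc.orderOf.symm

theorem ymove (u : Ω) : y u ≠ u := by
  have := Finset.mem_univ u
  rw [← D.ysupp] at this
  simpa using this

theorem exists_pts : ∃ a b : Ω, Pts x a b := by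
  have h1 : (x.supportᶜ).card = 2 := by
    rw [Finset.card_compl, D.xsupp, D.hcard]; omega
  obtain ⟨a, b, hab, hc⟩ := Finset.card_eq_two.1 h1
  have hfix : ∀ u, x u = u ↔ u = a ∨ u = b := by
    intro u
    have : u ∈ x.supportᶜ ↔ u = a ∨ u = b := by rw [hc]; simp
    rw [← this]; simp
  refine ⟨a, b, hab, (hfix a).2 (Or.inl rfl), (hfix b).2 (Or.inr rfl), ?_⟩
  intro u hua hub h
  rcases (hfix u).1 h with h | h
  · exact hua h
  · exact hub h

theorem ytrans (u v : Ω) : ∃ i : ℕ, (y ^ i) u = v :=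
  D.ycyc.exists_pow_eq (D.ymove u) (D.ymove v)

theorem y_pow_dvd {k : ℕ} {u : Ω} (h : (y ^ k) u = u) : (p + 2) ∣ k := by
  by_contra hn
  have hm : 0 < k % (p + 2) := Nat.pos_of_ne_zero fun h0 => hn (Nat.dvd_of_mod_eq_zero h0)
  have hlt : k % (p + 2) < p + 2 := Nat.mod_lt _ (by omega)
  refine pow_apply_ne D.hq D.hyo (D.ymove u) hm hlt ?_
  rw [← D.hyo, pow_mod_orderOf, h]

theorem xtrans {a b : Ω} (P : Pts x a b) {u v : Ω} (hua : u ≠ a) (hub : u ≠ b) (hva : v ≠ a)
    (hvb : v ≠ b) : ∃ i : ℕ, (x ^ i) u = v :=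
  D.xcyc.exists_pow_eq (P.xm u hua hub) (P.xm v hva hvb)

/-- The stabiliser of `a` is transitive on the other points. -/
theorem two_trans {a b : Ω} (P : Pts x a b) {v : Ω} (hv : v ≠ a) :
    ∃ g ∈ G, g a = a ∧ g v = b := by
  obtain ⟨k, hk⟩ := D.ytrans b a
  set g₀ := y ^ k with hg₀
  have hg₀G : g₀ ∈ G := pow_mem D.hyG k
  set a₂ := g₀ a with ha₂
  have h1 : a₂ ≠ a := by
    intro h
    apply P.hab
    apply g₀.injective
    rw [← ha₂, h, hk]
  have h2 : a₂ ≠ b := by
    intro h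
    have h3 : (y ^ (k + k)) b = b := by
      rw [pow_add, Perm.mul_apply, hk, ← hg₀, ← ha₂, h]
    have h4 := D.y_pow_dvd h3
    have h5 : (p + 2) ∣ k := by
      rw [← two_mul] at h4
      refine (Nat.Coprime.dvd_of_dvd_mul_left ?_ h4)
      rw [Nat.coprime_comm, Nat.coprime_primes Nat.prime_two D.hq]
      have := D.hp3
      omega
    have h6 : g₀ = 1 := by
      rw [hg₀, ← D.hyo] at *
      exact orderOf_dvd_iff_pow_eq_one.1 h5
    rw [h6] at hk
    exact P.hab hk.symm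
  set x₂ := g₀ * x * g₀⁻¹ with hx₂
  have hx₂G : x₂ ∈ G := mul_mem (mul_mem hg₀G D.hxG) (inv_mem hg₀G)
  have hx₂c : x₂.IsCycle := D.xcyc.conj
  have hx₂a : x₂ a = a := by
    have : g₀⁻¹ a = b := by rw [Perm.inv_eq_iff_eq]; exact hk.symm
    rw [hx₂, Perm.mul_apply, Perm.mul_apply, this, P.xb, hk]
  have hx₂a₂ : x₂ a₂ = a₂ := by
    have : g₀⁻¹ a₂ = a := by rw [Perm.inv_eq_iff_eq]
    rw [hx₂, Perm.mul_apply, Perm.mul_apply, this, P.xa]
  have hx₂m : ∀ u, u ≠ a → u ≠ a₂ → x₂ u ≠ u := by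
    intro u hua hua₂ he
    have h3 : x (g₀⁻¹ u) = g₀⁻¹ u := by
      apply g₀.injective
      rw [show g₀ (g₀⁻¹ u) = u by simp]
      exact he
    have h4 : g₀⁻¹ u ≠ a := by
      intro h5
      apply hua₂
      rw [Perm.inv_eq_iff_eq] at h5
      exact h5
    have h5 : g₀⁻¹ u ≠ b := by
      intro h6
      apply hua
      rw [Perm.inv_eq_iff_eq] at h6
      rw [h6, hk]
    exact P.xm _ h4 h5 h3
  have hbm : x₂ b ≠ b := hx₂m b P.hab.symm h2.symm
  by_cases hva₂ : v = a₂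
  · -- first move `a₂`
    have h3 : x a₂ ≠ a₂ := P.xm _ h1 h2
    have h4 : x a₂ ≠ a := by
      intro h5
      apply h1
      apply x.injective
      rw [h5, P.xa]
    obtain ⟨i, hi⟩ := hx₂c.exists_pow_eq (hx₂m _ h4 h3) hbm
    refine ⟨x₂ ^ i * x, mul_mem (pow_mem hx₂G i) D.hxG, ?_, ?_⟩
    · rw [Perm.mul_apply, P.xa]
      exact pow_apply_eq_self_of_apply_eq_self hx₂a i
    · rw [Perm.mul_apply, hva₂, hi]
  · obtain ⟨i, hi⟩ := hx₂c.exists_pow_eq (hx₂m v hv hva₂) hbm
    exact ⟨x₂ ^ i, pow_mem hx₂G i, pow_apply_eq_self_of_apply_eq_self hx₂a i, hi⟩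

/-- The cardinality of `G` in terms of the first stabiliser. -/
theorem card_G {a : Ω} : Nat.card G = (p + 2) * Nat.card (stabG G a) := by
  have := card_stabG G a Finset.univ (fun _ _ => Finset.mem_univ _) (fun v _ => by
    obtain ⟨i, hi⟩ := D.ytrans a v
    exact ⟨_, pow_mem D.hyG i, hi⟩)
  rw [this, Finset.card_univ, D.hcard]

/-- The cardinality of the first stabiliser in terms of the second. -/
theorem card_L {a b : Ω} (P : Pts x a b) :
    Nat.card (stabG G a) = (p + 1) * Nat.card (stabG (stabG G a) b) := by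
  have := card_stabG (stabG G a) b (Finset.univ.erase a) (fun g hg => by
    rw [Finset.mem_erase]
    refine ⟨?_, Finset.mem_univ _⟩
    intro h
    apply P.hab
    apply g.injective
    rw [hg.2, h]) (fun v hv => by
    have hva : v ≠ a := (Finset.mem_erase.1 hv).1
    obtain ⟨g, hg, hga, hgv⟩ := D.two_trans P hva
    refine ⟨g⁻¹, ⟨inv_mem hg, by rw [Perm.inv_eq_iff_eq]; exact hga.symm⟩, ?_⟩
    rw [Perm.inv_eq_iff_eq]; exact hgv.symm)
  rw [this, Finset.card_erase_of_mem (Finset.mem_univ _), Finset.card_univ, D.hcard]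
  rfl

theorem x_mem_T {a b : Ω} (P : Pts x a b) : x ∈ stabG (stabG G a) b :=
  ⟨⟨D.hxG, P.xa⟩, P.xb⟩

/-- A normaliser of `x` in the stabiliser of `a` fixes `b`. -/
theorem fix_of_norm {a b : Ω} (P : Pts x a b) {g : Perm Ω} (hga : g a = a) {n : ℕ}
    (hn : g * x * g⁻¹ = x ^ n) : g b = b := by
  by_contra hb
  have hxw : x (g b) ≠ g b := by
    apply P.xm _ _ hb
    intro h
    apply P.hab
    apply g.injective
    rw [hga, h]
  have h1 : (x ^ n) (g b) = g b := by
    rw [← hn, Perm.mul_apply, Perm.mul_apply]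
    simp [P.xb]
  have h2 : (x ^ (n % p)) (g b) = g b := by
    rw [← D.hxo, pow_mod_orderOf, h1]
  have hlt : n % p < p := Nat.mod_lt _ D.hp.pos
  by_cases h0 : n % p = 0
  · -- then the conjugate of `x` is trivial
    have h3 : x ^ n = 1 := by
      rw [← pow_mod_orderOf, D.hxo, h0, pow_zero]
    rw [h3] at hn
    have h4 : x = 1 := by
      have : x = g⁻¹ * (g * x * g⁻¹) * g := by group
      rw [this, hn]; group
    rw [h4] at hxw
    exact hxw rfl
  · exact pow_apply_ne D.hp D.hxo hxw (Nat.pos_of_ne_zero h0) hlt h2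

/-- If the two-point stabiliser is generated by `x`, the Frobenius argument applies. -/
theorem no_sharp {a b : Ω} (P : Pts x a b) (h6 : 6 ∣ p + 1)
    (hT : ∀ g ∈ G, g a = a → g b = b → g ∈ zpowers x) : False := by
  haveI : Fact p.Prime := ⟨D.hp⟩
  let L := stabG G a
  let xL : L := ⟨x, ⟨D.hxG, P.xa⟩⟩
  have hxL : orderOf xL = p := by rw [← D.hxo]; exact Subgroup.orderOf_mk x _
  have hTe : stabG (stabG G a) b = zpowers x := by
    ext g
    constructor
    · rintro ⟨⟨hg, hga⟩, hgb⟩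
      exact hT g hg hga hgb
    · intro hg
      obtain ⟨k, rfl⟩ := mem_zpowers_iff.1 hg
      exact zpow_mem (D.x_mem_T P) k
  have hcardL : Nat.card L = p * (p + 1) := by
    have h1 := D.card_L P
    rw [hTe, Nat.card_zpowers, D.hxo] at h1
    rw [mul_comm]
    exact h1
  refine Frob.frob xL hxL hcardL ?_ (Dvd.dvd.trans (by norm_num) h6) (Dvd.dvd.trans (by norm_num) h6)
  intro g hg
  obtain ⟨n, hn⟩ := (mem_powers_iff_mem_zpowers).2 hg
  have hn' : (g : Perm Ω) * x * (g : Perm Ω)⁻¹ = x ^ n := by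
    have := congrArg Subtype.val hn
    exact this.symm
  have hgb := D.fix_of_norm P g.2.2 hn'
  obtain ⟨k, hk⟩ := mem_zpowers_iff.1 (hT g g.2.1 g.2.2 hgb)
  refine mem_zpowers_iff.2 ⟨k, Subtype.ext ?_⟩
  exact hk

/-- Transitivity. -/
theorem pretrans : IsPretransitive G Ω := by
  refine ⟨fun u v => ?_⟩
  obtain ⟨i, hi⟩ := D.ytrans u v
  exact ⟨⟨y ^ i, pow_mem D.hyG i⟩, hi⟩

/-- Primitivity. -/
theorem prim : IsPreprimitive G Ω := by
  haveI := D.pretrans
  exact prim_of_long_cycle G D.hyG D.hq D.hyo D.ycyc (by rw [D.hcard]; omega)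

/-- Jordan's theorem. -/
theorem alt_of_cycle {c : Perm Ω} (hc : c ∈ G) (hcc : c.IsCycle) {ℓ : ℕ} (hℓ : ℓ.Prime)
    (hs : c.support.card = ℓ) (hle : ℓ + 3 ≤ p + 2) : alternatingGroup Ω ≤ G :=
  Cfsg.Agent.Lib.Perm.JordanPrime.jordan_prime_cycle G D.prim hℓ (by rw [D.hcard]; exact hle)
    hcc hs hc

end Data

/-- The case of degree seven, from Bochert's bound. -/
theorem alt_five {G : Subgroup (Perm Ω)} {x y : Perm Ω} (D : Data G x y 5) :
    alternatingGroup Ω ≤ G := by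
  by_contra hA
  obtain ⟨a, b, P⟩ := D.exists_pts
  have hrange : (MulAction.toPermHom G Ω).range = G := by
    ext g
    constructor
    · rintro ⟨h, rfl⟩
      exact h.2
    · intro hg
      exact ⟨⟨g, hg⟩, rfl⟩
  have hB := Cfsg.Agent.Lib.PermRec.Bochert.main (G := G) (Ω := Ω) D.prim (by rwa [hrange])
  rw [D.hcard] at hB
  have hf4 : Nat.factorial ((5 + 2 + 1) / 2) = 24 := by decide
  have hf7 : Nat.factorial (5 + 2) = 5040 := by decide
  rw [hf4, hf7, D.card_G (a := a), D.card_L P] at hB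
  refine D.no_sharp P (by norm_num) ?_
  have hle : zpowers x ≤ stabG (stabG G a) b := by
    rw [zpowers_le]
    exact D.x_mem_T P
  have hc : Nat.card (stabG (stabG G a) b) ≤ Nat.card (zpowers x) := by
    rw [Nat.card_zpowers, D.hxo]
    omega
  have he : zpowers x = stabG (stabG G a) b := Subgroup.eq_of_le_of_card_ge hle hc
  intro g hg hga hgb
  rw [he]
  exact ⟨⟨hg, hga⟩, hgb⟩

end Cfsg.Agent.Lib.AltTwoPrimes.Twin
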