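import Cfsg.Agent.Lib.AltTwoPrimes.Twin

/-!
# Degree thirteen: the two-point stabiliser
-/

set_option autoImplicit false

namespace Cfsg.Agent.Lib.AltTwoPrimes.Twin11

open Equiv Equiv.Perm MulAction Subgroup
open Cfsg.Agent.Lib.AltTwoPrimes.Core Cfsg.Agent.Lib.AltTwoPrimes.Twin
open scoped Pointwise

variable {Ω : Type*} [Fintype Ω] [DecidableEq Ω]
variable {G : Subgroup (Perm Ω)} {x y : Perm Ω}

instance fact_five : Fact (Nat.Prime 5) := ⟨by norm_num⟩

instance fact11 : Fact (Nat.Prime 11) := ⟨by norm_num⟩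

/-- If `⟨x⟩` is self-normalising in the two-point stabiliser, it is the whole stabiliser. -/
theorem T_eq (D : Data G x y 11) {a b : Ω} (P : Pts x a b)
    (hN : ∀ g : stabG (stabG G a) b,
      g * ⟨x, D.x_mem_T P⟩ * g⁻¹ ∈ zpowers (⟨x, D.x_mem_T P⟩ : stabG (stabG G a) b) →
        g ∈ zpowers (⟨x, D.x_mem_T P⟩ : stabG (stabG G a) b)) :
    ∀ g ∈ G, g a = a → g b = b → g ∈ zpowers x := by
  set T := stabG (stabG G a) b with hT
  let xT : T := ⟨x, D.x_mem_T P⟩
  have hxT : orderOf xT = 11 := by rw [← D.hxo]; exact Subgroup.orderOf_mk x _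
  have hnd : ¬ 11 ^ 2 ∣ Nat.card T := by
    intro h
    have h1 := Subgroup.card_subgroup_dvd_card T
    rw [Nat.card_eq_fintype_card (α := Perm Ω), Fintype.card_perm, D.hcard] at h1
    have h2 := h.trans h1
    revert h2
    decide
  obtain ⟨S, hS⟩ := Frob.exists_sylow_zpowers xT hxT hnd
  have hPc : normalizer (S : Subgroup T) ≤ centralizer ((S : Subgroup T) : Set T) := by
    intro g hg
    rw [hS] at hg ⊢
    have hgx : g ∈ zpowers xT := by
      apply hN
      exact (mem_normalizer_iff.1 hg xT).1 (mem_zpowers xT)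
    rw [mem_centralizer_iff]
    intro h hh
    obtain ⟨a, rfl⟩ := mem_zpowers_iff.1 hgx
    obtain ⟨b, rfl⟩ := mem_zpowers_iff.1 (show h ∈ zpowers xT from hh)
    exact (Commute.refl xT).zpow_zpow b a
  set φ := MonoidHom.transferSylow S hPc with hφ
  set K := φ.ker with hK
  have hcompl : IsComplement' K (S : Subgroup T) := MonoidHom.ker_transferSylow_isComplement' S hPc
  have hSc : Nat.card (S : Subgroup T) = 11 := by rw [hS, Nat.card_zpowers, hxT]
  have hcardK : Nat.card K * 11 = Nat.card T := by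
    have h := hcompl.card_mul_card
    rwa [hSc] at h
  -- all of `K` fixes every point
  have hKfix : ∀ k : T, k ∈ K → ∀ c : Ω, (k : Perm Ω) c = c := by
    intro k hk c
    by_cases hca : c = a
    · rw [hca]; exact k.2.1.2
    by_cases hcb : c = b
    · rw [hcb]; exact k.2.2
    -- orbit of `c`
    have hOc : Nat.card T = ((Finset.univ.erase a).erase b).card * Nat.card (stabG T c) := by
      apply card_stabG T c
      · intro g hg
        simp only [Finset.mem_erase, Finset.mem_univ, and_true]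
        refine ⟨?_, ?_⟩
        · intro h
          apply hcb
          apply g.injective
          rw [h, hg.2]
        · intro h
          apply hca
          apply g.injective
          rw [h, hg.1.2]
      · intro v hv
        simp only [Finset.mem_erase, Finset.mem_univ, and_true] at hv
        obtain ⟨i, hi⟩ := D.xtrans P hca hcb hv.2 hv.1
        exact ⟨x ^ i, pow_mem (D.x_mem_T P) i, hi⟩
    have hOcard : ((Finset.univ.erase a).erase b).card = 11 := by
      rw [Finset.card_erase_of_mem (by simp [P.hab.symm]),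
        Finset.card_erase_of_mem (Finset.mem_univ _), Finset.card_univ, D.hcard]
    rw [hOcard] at hOc
    set s := Nat.card (stabG T c) with hs
    have hsK : s = Nat.card K := by omega
    have hcop : Nat.Coprime s 11 := by
      apply Nat.Coprime.symm
      rw [Nat.Prime.coprime_iff_not_dvd (by norm_num)]
      intro hd
      apply hnd
      rw [hOc, pow_two]
      exact Nat.mul_dvd_mul_left 11 hd
    -- the stabiliser of `c` lies in `K`
    have hstab : ∀ g : T, (g : Perm Ω) c = c → g ∈ K := by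
      intro g hgc
      have h1 : orderOf g ∣ s := by
        have h2 := orderOf_dvd_natCard (⟨(g : Perm Ω), ⟨g.2, hgc⟩⟩ : stabG T c)
        have e1 : orderOf (⟨(g : Perm Ω), ⟨g.2, hgc⟩⟩ : stabG T c) = orderOf g :=
          (Subgroup.orderOf_mk _ _).trans (Subgroup.orderOf_coe g)
        rw [e1] at h2
        exact h2
      have h2 : orderOf (φ g) ∣ s := (orderOf_map_dvd φ g).trans h1
      have h3 : orderOf (φ g) ∣ 11 := by
        have := orderOf_dvd_natCard (φ g)
        rwa [hSc] at this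
      have h4 : orderOf (φ g) = 1 := Nat.eq_one_of_dvd_coprimes hcop h2 h3
      exact MonoidHom.mem_ker.2 (orderOf_eq_one_iff.1 h4)
    -- so it is equal to `K`, by counting
    let K₀ : Subgroup T := (stabG T c).subgroupOf T
    have hle : K₀ ≤ K := by
      intro g hg
      exact hstab g (by
        have : (g : Perm Ω) ∈ stabG T c := hg
        exact this.2)
    have hK₀card : Nat.card K₀ = s := by
      refine Nat.card_congr
        { toFun := fun g => ⟨g.1.1, g.2⟩
          invFun := fun g => ⟨⟨g.1, g.2.1⟩, g.2⟩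
          left_inv := fun g => rfl
          right_inv := fun g => rfl }
    have heq : K₀ = K := Subgroup.eq_of_le_of_card_ge hle (by rw [hK₀card, hsK])
    have hkK₀ : k ∈ K₀ := by rw [heq]; exact hk
    have : (k : Perm Ω) ∈ stabG T c := hkK₀
    exact this.2
  have hKbot : K = ⊥ := by
    rw [eq_bot_iff]
    intro k hk
    rw [Subgroup.mem_bot]
    apply Subtype.ext
    apply Equiv.ext
    intro c
    exact hKfix k hk c
  have hTcard : Nat.card T = 11 := by
    rw [← hcardK, hKbot]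
    simp
  have htop : zpowers xT = ⊤ := by
    apply Subgroup.eq_top_of_card_eq
    rw [Nat.card_zpowers, hxT, hTcard]
  intro g hg hga hgb
  have h1 : (⟨g, ⟨⟨hg, hga⟩, hgb⟩⟩ : T) ∈ zpowers xT := by rw [htop]; exact mem_top _
  obtain ⟨k, hk⟩ := mem_zpowers_iff.1 h1
  refine mem_zpowers_iff.2 ⟨k, ?_⟩
  have := congrArg Subtype.val hk
  simpa [xT] using this

section Coord

theorem pow_c_eq (D : Data G x y 11) {c₀ : Ω} (hc₀ : x c₀ ≠ c₀) {A B : ℕ}
    (h : (x ^ A) c₀ = (x ^ B) c₀) : A % 11 = B % 11 := by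
  have hinj := pow_inj (by norm_num) D.hxo hc₀
  have h1 : (x ^ (A % 11)) c₀ = (x ^ (B % 11)) c₀ := by
    rw [← D.hxo, pow_mod_orderOf, pow_mod_orderOf]
    exact h
  have := hinj (a₁ := ⟨A % 11, Nat.mod_lt _ (by norm_num)⟩) (a₂ := ⟨B % 11, Nat.mod_lt _ (by norm_num)⟩) h1
  exact congrArg Fin.val this

theorem pow_c_of_mod (D : Data G x y 11) (c₀ : Ω) {A B : ℕ}
    (h : A % 11 = B % 11) : (x ^ A) c₀ = (x ^ B) c₀ := by
  rw [← pow_mod_orderOf x A, ← pow_mod_orderOf x B, D.hxo, h]

/-- An affine action with multiplier one is trivial. -/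
theorem eq_one_of_mult (D : Data G x y 11) {a b : Ω} (P : Pts x a b) {c₀ : Ω} (hc₀ : x c₀ ≠ c₀)
    {t : Perm Ω} {m : ℕ} (ht : ∀ i, t ((x ^ i) c₀) = (x ^ (m * i)) c₀) (ta : t a = a) (tb : t b = b)
    (hm : m % 11 = 1) : t = 1 := by
  have hca : c₀ ≠ a := fun h => hc₀ (by rw [h, P.xa])
  have hcb : c₀ ≠ b := fun h => hc₀ (by rw [h, P.xb])
  apply Equiv.ext
  intro u
  by_cases hua : u = a
  · rw [hua, ta]; rfl
  by_cases hub : u = b
  · rw [hub, tb]; rfl
  obtain ⟨i, rfl⟩ := D.xtrans P hca hcb hua hub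
  rw [ht]
  apply pow_c_of_mod D
  rw [Nat.mul_mod, hm, one_mul, Nat.mod_mod]

/-- The fixed points of an affine action with multiplier different from one. -/
theorem compl_supp_of_mult (D : Data G x y 11) {a b : Ω} (P : Pts x a b) {c₀ : Ω} (hc₀ : x c₀ ≠ c₀)
    {t : Perm Ω} {m : ℕ} (ht : ∀ i, t ((x ^ i) c₀) = (x ^ (m * i)) c₀) (ta : t a = a) (tb : t b = b)
    (hm : m % 11 ≠ 1) : t.supportᶜ = {a, b, c₀} := by
  have hca : c₀ ≠ a := fun h => hc₀ (by rw [h, P.xa])
  have hcb : c₀ ≠ b := fun h => hc₀ (by rw [h, P.xb])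
  ext u
  simp only [Finset.mem_compl, mem_support, not_not, Finset.mem_insert, Finset.mem_singleton]
  constructor
  · intro hu
    by_contra hn
    push Not at hn
    obtain ⟨hua, hub, huc⟩ := hn
    obtain ⟨i, rfl⟩ := D.xtrans P hca hcb hua hub
    rw [ht] at hu
    have h1 := pow_c_eq D hc₀ hu
    rw [Nat.mul_mod] at h1
    have hi : i % 11 ≠ 0 := by
      intro h0
      apply huc
      have := pow_c_of_mod D c₀ (A := i) (B := 0) (by simpa using h0)
      simpa using this
    have hm11 : m % 11 < 11 := Nat.mod_lt _ (by norm_num)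
    have hi11 : i % 11 < 11 := Nat.mod_lt _ (by norm_num)
    have key : ∀ A < 11, ∀ B < 11, A ≠ 1 → B ≠ 0 → A * B % 11 ≠ B := by decide
    exact key _ hm11 _ hi11 hm hi h1
  · rintro (rfl | rfl | rfl)
    · exact ta
    · exact tb
    · have := ht 0
      simpa using this

theorem card_supp_of_mult (D : Data G x y 11) {a b : Ω} (P : Pts x a b) {c₀ : Ω} (hc₀ : x c₀ ≠ c₀)
    {t : Perm Ω} {m : ℕ} (ht : ∀ i, t ((x ^ i) c₀) = (x ^ (m * i)) c₀) (ta : t a = a) (tb : t b = b)
    (hm : m % 11 ≠ 1) : t.support.card = 10 := by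
  have hca : c₀ ≠ a := fun h => hc₀ (by rw [h, P.xa])
  have hcb : c₀ ≠ b := fun h => hc₀ (by rw [h, P.xb])
  have h1 := compl_supp_of_mult D P hc₀ ht ta tb hm
  have h2 : (t.supportᶜ).card = 3 := by
    rw [h1, Finset.card_eq_three]
    exact ⟨a, b, c₀, P.hab, hca.symm, hcb.symm, rfl⟩
  rw [Finset.card_compl, D.hcard] at h2
  have h3 := Finset.card_le_univ t.support
  rw [D.hcard] at h3
  omega

/-- A "reflection" is an odd permutation. -/
theorem no_reflection (D : Data G x y 11) {a b : Ω} (P : Pts x a b) {c₀ : Ω} (hc₀ : x c₀ ≠ c₀)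
    {t : Perm Ω} {m : ℕ} (ht : ∀ i, t ((x ^ i) c₀) = (x ^ (m * i)) c₀) (ta : t a = a) (tb : t b = b)
    (hm : m % 11 = 10) : sign t ≠ 1 := by
  have hcard := card_supp_of_mult D P hc₀ ht ta tb (by omega)
  have ht2 : t * t = 1 := by
    refine eq_one_of_mult D P hc₀ (m := m * m) ?_ ?_ ?_ ?_
    · intro i
      rw [Perm.mul_apply, ht, ht, mul_assoc]
    · rw [Perm.mul_apply, ta, ta]
    · rw [Perm.mul_apply, tb, tb]
    · rw [Nat.mul_mod, hm]
  have ht1 : t ≠ 1 := by
    intro h
    rw [h] at hcard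
    simp at hcard
  have ho : orderOf t = 2 := orderOf_eq_prime (by rw [pow_two]; exact ht2) ht1
  obtain ⟨n, hn⟩ := cycleType_prime_order (σ := t) (by rw [ho]; norm_num)
  have hs := t.sum_cycleType
  rw [hn, ho, Multiset.sum_replicate, hcard] at hs
  simp only [smul_eq_mul] at hs
  have hn4 : n = 4 := by omega
  have hsign := sign_of_cycleType t
  rw [hn, ho, hn4] at hsign
  rw [hsign]
  decide

/-- Production of the element of order five. -/
theorem exists_z (D : Data G x y 11) {a b : Ω} (P : Pts x a b) (hev : ∀ g ∈ G, sign g = 1)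
    {g : Perm Ω} (hgG : g ∈ G) (hga : g a = a) (hgb : g b = b) {n : ℕ} (hn : g * x * g⁻¹ = x ^ n)
    (hg : g ∉ zpowers x) :
    ∃ (c : Ω) (z : Perm Ω), x c ≠ c ∧ z ∈ G ∧ z a = a ∧ z b = b ∧ z c = c ∧ orderOf z = 5 ∧
      z.support.card = 10 ∧ z.supportᶜ = {a, b, c} := by
  obtain ⟨c₀, hc₀, -⟩ := id D.xcyc
  have hca : c₀ ≠ a := fun h => hc₀ (by rw [h, P.xa])
  have hcb : c₀ ≠ b := fun h => hc₀ (by rw [h, P.xb])
  have hgca : g c₀ ≠ a := fun h => hca (g.injective (by rw [h, hga]))
  have hgcb : g c₀ ≠ b := fun h => hcb (g.injective (by rw [h, hgb]))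
  obtain ⟨j, hj⟩ := D.xtrans P hgca hgcb hca hcb
  set h := x ^ j * g with hh
  have hG : h ∈ G := mul_mem (pow_mem D.hxG j) hgG
  have ha : h a = a := by
    rw [hh, Perm.mul_apply, hga]
    exact pow_apply_eq_self_of_apply_eq_self P.xa j
  have hb : h b = b := by
    rw [hh, Perm.mul_apply, hgb]
    exact pow_apply_eq_self_of_apply_eq_self P.xb j
  have hc : h c₀ = c₀ := hj
  have hconj : h * x * h⁻¹ = x ^ n := by
    calc h * x * h⁻¹ = x ^ j * (g * x * g⁻¹) * (x ^ j)⁻¹ := by rw [hh]; group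
      _ = x ^ j * x ^ n * (x ^ j)⁻¹ := by rw [hn]
      _ = x ^ n := by
        rw [mul_inv_eq_iff_eq_mul, ← pow_add, ← pow_add, add_comm]
  have hnot : h ∉ zpowers x := by
    intro hm
    apply hg
    have e : g = (x ^ j)⁻¹ * h := by rw [hh]; group
    rw [e]
    exact mul_mem (inv_mem (pow_mem (mem_zpowers x) j)) hm
  have hsemi : SemiconjBy h x (x ^ n) := mul_inv_eq_iff_eq_mul.1 hconj
  have ht₁ : ∀ i, h ((x ^ i) c₀) = (x ^ (n * i)) c₀ := by
    intro i
    have h1 : h * x ^ i = (x ^ n) ^ i * h := (hsemi.pow_right i).eq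
    have h2 := congrArg (fun t : Perm Ω => t c₀) h1
    simp only [Perm.mul_apply, hc] at h2
    rw [h2, pow_mul]
  have hp : ∀ s i, (h ^ s) ((x ^ i) c₀) = (x ^ (n ^ s * i)) c₀ := by
    intro s
    induction s with
    | zero => intro i; simp
    | succ s ih =>
      intro i
      rw [pow_succ, Perm.mul_apply, ht₁, ih, show n ^ (s + 1) * i = n ^ s * (n * i) by ring]
  have hpa : ∀ s, (h ^ s) a = a := fun s => pow_apply_eq_self_of_apply_eq_self ha s
  have hpb : ∀ s, (h ^ s) b = b := fun s => pow_apply_eq_self_of_apply_eq_self hb s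
  have hn0 : n % 11 ≠ 0 := by
    intro h0
    have h1 : x ^ n = 1 := by
      rw [← pow_mod_orderOf, D.hxo, h0, pow_zero]
    rw [h1] at hn
    have h2 : x = 1 := by
      have : x = g⁻¹ * (g * x * g⁻¹) * g := by group
      rw [this, hn]; group
    rw [h2] at hc₀
    exact hc₀ rfl
  have hn1 : n % 11 ≠ 1 := by
    intro h1
    have := eq_one_of_mult D P hc₀ ht₁ ha hb h1
    apply hnot
    rw [this]
    exact one_mem _
  have hlt : n % 11 < 11 := Nat.mod_lt _ (by norm_num)
  have hcases : (n % 11 = 10) ∨ (n % 11 = 2 ∨ n % 11 = 6 ∨ n % 11 = 7 ∨ n % 11 = 8) ∨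
      (n % 11 = 3 ∨ n % 11 = 4 ∨ n % 11 = 5 ∨ n % 11 = 9) := by omega
  have hp5 : (n ^ 5) % 11 = ((n % 11) ^ 5) % 11 := Nat.pow_mod _ _ _
  rcases hcases with h10 | h2 | h3
  · exact absurd (hev h hG) (no_reflection D P hc₀ ht₁ ha hb h10)
  · have hm : (n ^ 5) % 11 = 10 := by
      rw [hp5]
      rcases h2 with e | e | e | e <;> rw [e] <;> norm_num
    exact absurd (hev _ (pow_mem hG 5)) (no_reflection D P hc₀ (hp 5) (hpa 5) (hpb 5) hm)
  · have hm : (n ^ 5) % 11 = 1 := by
      rw [hp5]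
      rcases h3 with e | e | e | e <;> rw [e] <;> norm_num
    have h51 : h ^ 5 = 1 := eq_one_of_mult D P hc₀ (hp 5) (hpa 5) (hpb 5) hm
    have hcard := card_supp_of_mult D P hc₀ ht₁ ha hb hn1
    have h1 : h ≠ 1 := by
      intro he
      rw [he] at hcard
      simp at hcard
    have ho : orderOf h = 5 := orderOf_eq_prime h51 h1
    exact ⟨c₀, h, hc₀, hG, ha, hb, hc, ho, hcard, compl_supp_of_mult D P hc₀ ht₁ ha hb hn1⟩

end Coord

end Cfsg.Agent.Lib.AltTwoPrimes.Twin11
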